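import Cfsg.Agent.H163.E65.Ops

/-!
# S3650, own characteristic: Curtis' theorem (helper163)

* `ti_eq`, `ti_sq` : rank one computations;
* `exists_eig` : an eigenvector of the torus;
* `exists_weight` : a common eigenvector;
* `curtis` : the highest weight function of a representation.
-/

set_option autoImplicit false
set_option linter.unusedSectionVars false

namespace Cfsg.Agent.H163.E65

open CoxeterSystem Cfsg.Agent.ChevalleyStructure.CoxeterGeom Cfsg.Agent.Tits.Roots Cfsg.Agent.Tits.Core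
  Cfsg.Agent.Tits.RootComb Cfsg.Agent.Nodes.Comb Cfsg.Agent.Nodes.Reps Cfsg.Agent.Nodes.BNOf Cfsg.Agent.Nodes.Bruhat
  Cfsg.Agent.Nodes.OppDec Cfsg.Agent.Tits.Exchange

variable {I W Y : Type*} [Fintype I] [DecidableEq I] [Group W] [Group Y] {M : CoxeterMatrix I}
  {cs : CoxeterSystem M W} {A : I → I → ℤ} {h : IsCartan M A} {p : ℕ} {T : Subgroup Y} {n : I → Y}
  {X : (I → ℤ) → Subgroup Y} {k : Type*} [Field k] {V : Type*} [AddCommGroup V] [Module k V]
  {ρ : Y →* Module.End k V}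

/-- splitting off zero, the rest parametrised by the inverses of the units -/
theorem sum_zero_units [Fintype k] [DecidableEq k] {V' : Type*} [AddCommMonoid V'] (F : k → V') :
    ∑ t, F t = F 0 + ∑ t : kˣ, F ((t⁻¹ : kˣ) : k) := by
  classical
  rw [← Finset.add_sum_erase _ _ (Finset.mem_univ (0 : k))]
  congr 1
  symm
  refine Finset.sum_bij (fun t _ => ((t⁻¹ : kˣ) : k)) ?_ ?_ ?_ ?_
  · intro t _
    simp
  · intro t _ t' _ e
    have : t⁻¹ = t'⁻¹ := Units.ext e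
    exact inv_injective this
  · intro b hb
    have hb0 : b ≠ 0 := (Finset.mem_erase.1 hb).1
    exact ⟨(Units.mk0 b hb0)⁻¹, Finset.mem_univ _, by simp⟩
  · intro t _; rfl

theorem sum_zero_units' [Fintype k] [DecidableEq k] {V' : Type*} [AddCommMonoid V'] (F : k → V') :
    ∑ t, F t = F 0 + ∑ t : kˣ, F t := by
  rw [sum_zero_units]
  congr 1
  exact Equiv.sum_comp (Equiv.inv kˣ) (fun t : kˣ => F (t : k))

theorem x_zero_of_add {x : k → Y} (hx : ∀ s t, x (s + t) = x s * x t) : x 0 = 1 := by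
  have h1 := hx 0 0
  rw [add_zero] at h1
  exact (mul_eq_left.1 h1.symm)

/-- the sum of the values of the character at the `h_i(-t)⁻¹` -/
noncomputable def kap [Fintype k] [DecidableEq k] (Q : RkOne T n X k) (χ : Y → k) (i : I) : k :=
  ∑ t : kˣ, χ ((Q.hh i (-t))⁻¹)

variable (R : RGD cs h p T n X) (Q : RkOne T n X k)

include R Q

theorem ti_eq [Fintype k] [DecidableEq k] [Finite Y] {v : V} (hv : Fx ρ (RGD.Sup X (RGD.Pos cs h)) v) {χ : Y → k}
    (hχ : ∀ t ∈ T, ρ t v = χ t • v) (i : I) :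
    Ti ρ n X i v = ρ (n i) v + ∑ t : kˣ, χ ((Q.hh i (-t))⁻¹) • ρ (Q.y i t) v := by
  rw [Ti_apply, SM_param (X (sr i)) (Q.x_mem i) (Q.x_inj i), sum_zero_units, x_zero_of_add (Q.x_add i), one_mul]
  congr 1
  refine Finset.sum_congr rfl fun t _ => ?_
  rw [Q.rel i t, mulv, hχ _ (inv_mem (Q.h_mem i _)), mulv, map_smul, map_smul,
    hv _ (RGD.le_Sup (S := RGD.Pos cs h) ⟨isRoot_sr cs h i, sr_nonneg i⟩ ((Q.x_mem i _).2 ⟨_, rfl⟩))]

/-- `n_i X (-α_i) n_i⁻¹ = X α_i` -/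
theorem conj_neg (i : I) {u : Y} (hu : u ∈ X (-sr i)) : n i * u * (n i)⁻¹ ∈ X (sr i) := by
  have := R.conj_mem (rp_simple cs R.nsys i) (isRoot_sr cs h i).neg hu
  rwa [map_neg, rep_simple_sr, neg_neg] at this

theorem conj_neg' (i : I) {u : Y} (hu : u ∈ X (-sr i)) : (n i)⁻¹ * u * n i ∈ X (sr i) := by
  have := R.conj_mem' (rp_simple cs R.nsys i) (isRoot_sr cs h i).neg hu
  rwa [inv_simple, map_neg, rep_simple_sr, neg_neg] at this

theorem ti_y [Finite Y] (i : I) {u : Y} (hu : u ∈ X (-sr i)) (v : V) : Ti ρ n X i (ρ u v) = Ti ρ n X i v := by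
  rw [Ti_apply, Ti_apply]
  have e : ∀ a ∈ X (sr i), ρ (a * n i) (ρ u v) = (fun c => ρ (c * n i) v) (a * (n i * u * (n i)⁻¹)) := by
    intro a _
    rw [← mulv]
    show _ = ρ (a * (n i * u * (n i)⁻¹) * n i) v
    congr 2
    group
  rw [SM_congr _ e, SM_right _ (conj_neg R Q i hu) (fun c => ρ (c * n i) v)]

theorem ti_sq [Fintype k] [DecidableEq k] [Finite Y] {v : V} (hv : Fx ρ (RGD.Sup X (RGD.Pos cs h)) v) {χ : Y → k}
    (hχ : ∀ t ∈ T, ρ t v = χ t • v) (i : I) :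
    Ti ρ n X i (Ti ρ n X i v) = kap Q χ i • Ti ρ n X i v := by
  conv_lhs => rw [ti_eq R Q hv hχ i]
  have h1 : Ti ρ n X i (ρ (n i) v) = 0 := by
    rw [Ti_apply]
    have e : ∀ a ∈ X (sr i), ρ (a * n i) (ρ (n i) v) = ρ (n i * n i) v := by
      intro a ha
      rw [← mulv, mul_assoc, mulv]
      exact fx_T R (R.sq_mem_T i) hv a (RGD.le_Sup (S := RGD.Pos cs h) ⟨isRoot_sr cs h i, sr_nonneg i⟩ ha)
    rw [SM_congr _ e, SM_param (X (sr i)) (Q.x_mem i) (Q.x_inj i), Finset.sum_const, Finset.card_univ,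
      ← Nat.cast_smul_eq_nsmul k, Nat.cast_card_eq_zero, zero_smul]
  rw [map_add, h1, zero_add, map_sum, kap, Finset.sum_smul]
  refine Finset.sum_congr rfl fun t _ => ?_
  rw [map_smul, ti_y R Q i ((Q.y_mem i _).2 ⟨_, rfl⟩)]


omit R Q

/-! ### eigenvectors of the torus -/

theorem exists_eig1 [Fintype k] [DecidableEq k] {t : Y} (ht : t ^ (Fintype.card k - 1) = 1) {v : V} (hv : v ≠ 0)
    {N : Submodule k V} (hN : ∀ m ∈ N, ρ t m ∈ N) (hvN : v ∈ N) : ∃ c : k, ∃ m ∈ N, m ≠ 0 ∧ ρ t m = c • m := by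
  set e : kˣ → V := fun c => ∑ j ∈ Finset.range (Fintype.card k - 1), ((c⁻¹ : kˣ) : k) ^ j • ρ (t ^ j) v with he
  have hpow : ∀ j, ∀ m ∈ N, ρ (t ^ j) m ∈ N := by
    intro j
    induction j with
    | zero => intro m hm; rw [pow_zero, map_one, Module.End.one_apply]; exact hm
    | succ j ih => intro m hm; rw [pow_succ', mulv]; exact hN _ (ih m hm)
  have hq : 0 < Fintype.card k - 1 := Nat.sub_pos_of_lt Fintype.one_lt_card
  have hsum : ∑ c : kˣ, e c = -v := by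
    rw [he, Finset.sum_comm]
    have h1 : ∀ j ∈ Finset.range (Fintype.card k - 1), ∑ c : kˣ, ((c⁻¹ : kˣ) : k) ^ j • ρ (t ^ j) v =
        (if j = 0 then -1 else 0 : k) • ρ (t ^ j) v := by
      intro j hj
      rw [← Finset.sum_smul]
      congr 1
      have h2 : ∑ c : kˣ, ((c⁻¹ : kˣ) : k) ^ j = ∑ c : kˣ, (c ^ j : k) :=
        Equiv.sum_comp (Equiv.inv kˣ) (fun c : kˣ => (c : k) ^ j)
      rw [h2]
      have h3 := FiniteField.sum_pow_units k j
      rw [h3]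
      have h4 : (Fintype.card k - 1 ∣ j) ↔ j = 0 := by
        constructor
        · intro h5
          exact Nat.eq_zero_of_dvd_of_lt h5 (Finset.mem_range.1 hj)
        · rintro rfl; exact dvd_zero _
      simp only [h4]
    rw [Finset.sum_congr rfl h1, Finset.sum_eq_single 0]
    · rw [if_pos rfl, pow_zero, map_one, Module.End.one_apply, neg_smul, one_smul]
    · intro j _ hj
      rw [if_neg hj, zero_smul]
    · intro h2
      exact absurd (Finset.mem_range.2 hq) h2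
  obtain ⟨c, hc⟩ : ∃ c, e c ≠ 0 := by
    by_contra hcon
    push Not at hcon
    rw [Finset.sum_eq_zero fun c _ => hcon c] at hsum
    exact hv (neg_eq_zero.1 hsum.symm)
  refine ⟨c, e c, Submodule.sum_mem _ fun j _ => N.smul_mem _ (hpow j v hvN), hc, ?_⟩
  set g : ℕ → V := fun j => ((c⁻¹ : kˣ) : k) ^ j • ρ (t ^ j) v with hg
  have h1 : e c = ∑ j ∈ Finset.range (Fintype.card k - 1), g j := rfl
  have h2 : g (Fintype.card k - 1) = g 0 := by
    rw [hg]
    simp only []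
    rw [ht, pow_zero, pow_zero, FiniteField.pow_card_sub_one_eq_one _ (Units.ne_zero _)]
  have h3 : ∑ j ∈ Finset.range (Fintype.card k - 1), g (j + 1) = ∑ j ∈ Finset.range (Fintype.card k - 1), g j := by
    have h4 := Finset.sum_range_succ g (Fintype.card k - 1)
    rw [Finset.sum_range_succ', h2] at h4
    exact add_right_cancel h4
  rw [h1, map_sum, Finset.smul_sum]
  have h5 : ∀ j, ρ t (g j) = (c : k) • g (j + 1) := by
    intro j
    rw [hg]
    simp only []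
    rw [map_smul, ← mulv, ← pow_succ', smul_smul]
    congr 1
    rw [pow_succ', ← mul_assoc, Units.mul_inv, one_mul]
  rw [Finset.sum_congr rfl fun j _ => h5 j, ← Finset.smul_sum, h3, Finset.smul_sum]

theorem exists_eig [Fintype k] [DecidableEq k] [Finite V] (hTc : ∀ s ∈ T, ∀ t ∈ T, s * t = t * s)
    (hTp : ∀ t ∈ T, t ^ (Fintype.card k - 1) = 1) {N₀ : Submodule k V} (hN₀ : ∀ t ∈ T, ∀ m ∈ N₀, ρ t m ∈ N₀)
    (hne : N₀ ≠ ⊥) : ∃ v ∈ N₀, v ≠ 0 ∧ ∃ χ : Y → k, ∀ t ∈ T, ρ t v = χ t • v := by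
  have hfin : Finite (Submodule k V) := Finite.of_injective ((↑) : Submodule k V → Set V) SetLike.coe_injective
  obtain ⟨N, ⟨hN1, hN2, hN3⟩, hmin⟩ := (wellFounded_lt (α := Submodule k V)).has_min
    {N | N ≤ N₀ ∧ N ≠ ⊥ ∧ ∀ t ∈ T, ∀ m ∈ N, ρ t m ∈ N} ⟨N₀, le_refl _, hne, hN₀⟩
  obtain ⟨v, hvN, hv⟩ := (Submodule.ne_bot_iff N).1 hN2
  have key : ∀ t ∈ T, ∃ c : k, ∀ m ∈ N, ρ t m = c • m := by
    intro t ht
    obtain ⟨c, m, hm, hm0, e⟩ := exists_eig1 (hTp t ht) hv (hN3 t ht) hvN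
    refine ⟨c, ?_⟩
    by_contra hcon
    let N' : Submodule k V := N ⊓ LinearMap.ker (ρ t - c • (1 : Module.End k V))
    have hmem : ∀ x, x ∈ N' ↔ x ∈ N ∧ ρ t x = c • x := by
      intro x
      rw [Submodule.mem_inf, LinearMap.mem_ker, LinearMap.sub_apply, LinearMap.smul_apply, Module.End.one_apply,
        sub_eq_zero]
    refine hmin N' ⟨le_trans inf_le_left hN1, ?_, ?_⟩ (lt_of_le_of_ne inf_le_left ?_)
    · rw [Submodule.ne_bot_iff]
      exact ⟨m, (hmem m).2 ⟨hm, e⟩, hm0⟩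
    · intro s hs x hx
      rw [hmem] at hx ⊢
      refine ⟨hN3 s hs x hx.1, ?_⟩
      rw [← mulv, ← hTc s hs t ht, mulv, hx.2, map_smul]
    · intro he
      apply hcon
      intro x hx
      rw [← he, hmem] at hx
      exact hx.2
  choose! c hc using key
  exact ⟨v, hN1 hvN, hv, c, fun t ht => hc t ht v hvN⟩

theorem exists_fx [Fact p.Prime] {G : Type*} [Group G] (hG : IsPGroup p G) {P : Type*} [AddCommGroup P] [Finite P]
    [Nontrivial P] (hp : ∀ v : P, p • v = 0) (σ : G → P → P) (h1 : ∀ v, σ 1 v = v)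
    (hmul : ∀ a b v, σ (a * b) v = σ a (σ b v)) (h0 : ∀ a, σ a 0 = 0) : ∃ v : P, v ≠ 0 ∧ ∀ g, σ g v = v := by
  let act : MulAction G P := { smul := σ, one_smul := h1, mul_smul := hmul }
  obtain ⟨v, hv⟩ := exists_ne (0 : P)
  have h2 : addOrderOf v = p := addOrderOf_eq_prime (hp v) hv
  have h3 : p ∣ Nat.card P := h2 ▸ addOrderOf_dvd_natCard v
  obtain ⟨b, hb, hb0⟩ := hG.exists_fixed_point_of_prime_dvd_card_of_fixed_point P h3 (a := 0) (fun g => h0 g)
  exact ⟨b, hb0.symm, fun g => hb g⟩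

include R Q

/-- **a common eigenvector** -/
theorem exists_weight [Finite W] [Finite Y] [Fintype k] [DecidableEq k] [Finite V] [Nontrivial V] [Fact p.Prime]
    [CharP k p] (hTc : ∀ s ∈ T, ∀ t ∈ T, s * t = t * s) (hTp : ∀ t ∈ T, t ^ (Fintype.card k - 1) = 1)
    (ρ : Y →* Module.End k V) :
    ∃ (v : V) (χ : Y → k) (c : I → k), v ≠ 0 ∧ Fx ρ (RGD.Sup X (RGD.Pos cs h)) v ∧ (∀ t ∈ T, ρ t v = χ t • v) ∧
      ∀ i, Ti ρ n X i v = c i • v ∧ (c i = 0 ∨ c i = kap Q χ i) := by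
  -- the fixed vectors of `U`
  let N₀ : Submodule k V :=
    { carrier := {v | Fx ρ (RGD.Sup X (RGD.Pos cs h)) v}
      zero_mem' := fun u _ => map_zero _
      add_mem' := fun {a b} ha hb u hu => by rw [map_add, ha u hu, hb u hu]
      smul_mem' := fun a v hv u hu => by rw [map_smul, hv u hu] }
  have hN₀ : ∀ v, v ∈ N₀ ↔ Fx ρ (RGD.Sup X (RGD.Pos cs h)) v := fun v => Iff.rfl
  have hne : N₀ ≠ ⊥ := by
    rw [Submodule.ne_bot_iff]
    obtain ⟨v, hv, hf⟩ := exists_fx R.isPGroup_Upos (P := V) (fun v => by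
      rw [← Nat.cast_smul_eq_nsmul k, CharP.cast_eq_zero, zero_smul])
      (fun u v => ρ u v) (fun v => by simp) (fun a b v => by simp) (fun a => map_zero _)
    exact ⟨v, (hN₀ v).2 fun u hu => hf ⟨u, hu⟩, hv⟩
  obtain ⟨v₀, hv₀, hv0, χ₀, hχ₀⟩ := exists_eig (ρ := ρ) (T := T) hTc hTp (N₀ := N₀)
    (fun t ht m hm => (hN₀ _).2 (fx_T R ht ((hN₀ m).1 hm))) hne
  rw [hN₀] at hv₀
  -- the longest `w` with `T_w v ≠ 0`
  let S : Set W := {w | ∃ g, Rp cs R.nsys w g ∧ Tw ρ cs h X w g v₀ ≠ 0}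
  have hS : S.Nonempty := by
    refine ⟨1, 1, rp_one, ?_⟩
    rw [Tw_apply, RGD.inv_one_eq, Sup_empty, SM_bot, one_mul, map_one, Module.End.one_apply]
    exact hv0
  obtain ⟨w, ⟨g, hg, hgne⟩, hmax⟩ := Set.exists_max_image S cs.length (Set.toFinite S) hS
  have hχ := tw_T (cs := cs) (h := h) R hg hχ₀
  have hU := tw_U R hv₀ w hg
  have key : ∀ i, ∃ c : k, Ti ρ n X i (Tw ρ cs h X w g v₀) = c • Tw ρ cs h X w g v₀ := by
    intro i
    rcases (IsRoot.pos_or_neg (cs := cs) (h := h) ((isRoot_sr cs h i).act w⁻¹)) with hpos | hneg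
    · refine ⟨0, ?_⟩
      rw [zero_smul, ti_tw R hpos]
      by_contra hcon
      have h1 := hmax (cs.simple i * w) ⟨n i * g, (rp_simple cs R.nsys i).mul hg, hcon⟩
      have h2 := (lt_iff' cs h w⁻¹ i).2 hpos
      rw [cs.length_inv, ← cs.length_inv (w⁻¹ * cs.simple i), mul_inv_rev, inv_inv, inv_simple] at h2
      omega
    · have hpos' : 0 ≤ rep cs h (cs.simple i * w)⁻¹ (sr i) := by
        rw [mul_inv_rev, inv_simple, rep_mul_apply, rep_simple_sr, map_neg]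
        exact neg_nonneg.2 hneg
      have hsw : cs.simple i * (cs.simple i * w) = w := by rw [← mul_assoc, simple_mul_simple_self, one_mul]
      have h1 := ti_tw (ρ := ρ) (g := (n i)⁻¹ * g) R hpos' v₀
      rw [hsw, mul_inv_cancel_left] at h1
      have hg' : Rp cs R.nsys (cs.simple i * w) ((n i)⁻¹ * g) := by
        have := (rp_simple cs R.nsys i).inv.mul hg
        rwa [inv_simple] at this
      refine ⟨kap Q (fun t => χ₀ (((n i)⁻¹ * g)⁻¹ * t * ((n i)⁻¹ * g))) i, ?_⟩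
      rw [← h1]
      exact ti_sq R Q (tw_U R hv₀ _ hg') (tw_T R hg' hχ₀) i
  choose c hc using key
  refine ⟨Tw ρ cs h X w g v₀, fun t => χ₀ (g⁻¹ * t * g), c, hgne, hU, hχ, fun i => ⟨hc i, ?_⟩⟩
  have h1 := ti_sq R Q hU hχ i
  rw [hc i, map_smul, hc i, smul_smul, smul_smul, ← sub_eq_zero, ← sub_smul, smul_eq_zero] at h1
  have h2 := h1.resolve_right hgne
  rw [← sub_mul, mul_eq_zero, sub_eq_zero] at h2
  rcases h2 with h2 | h2
  · exact Or.inr h2
  · exact Or.inl h2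

end Cfsg.Agent.H163.E65
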