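import Cfsg.Agent.Nodes.Bruhat

/-!
# S3650, own characteristic: highest weight functions (helper163)

`f : Y → k` is a *highest weight function* (`HW`) with character `χ` and set `J` of nodes: `f 1 = 1`, `f` is invariant
under `U⁻` on the left and `U` on the right, `f (g t) = f g * χ t`, `f (g u) = f g` for `u ∈ X (-α_i)`, `i ∈ J`, and for
`i ∉ J` `f (g n_i) = ∑ c_u f (g u)`, `u ∈ X (-α_i)`, with `∑ c_u = 0`.
-/

set_option autoImplicit false
set_option linter.unusedSectionVars false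

namespace Cfsg.Agent.H163.E65

open CoxeterSystem Cfsg.Agent.ChevalleyStructure.CoxeterGeom Cfsg.Agent.Tits.Roots Cfsg.Agent.Tits.Core
  Cfsg.Agent.Tits.RootComb Cfsg.Agent.Nodes.Comb Cfsg.Agent.Nodes.Reps Cfsg.Agent.Nodes.BNOf

variable {I W Y : Type*} [Fintype I] [DecidableEq I] [Group W] [Group Y] {M : CoxeterMatrix I}

/-- highest weight functions -/
structure HW (cs : CoxeterSystem M W) {A : I → I → ℤ} (h : IsCartan M A) (T : Subgroup Y) (n : I → Y)
    (X : (I → ℤ) → Subgroup Y) {k : Type*} [Field k] (f χ : Y → k) (J : Set I) : Prop where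
  one : f 1 = 1
  left : ∀ x, IsRoot cs h x → x ≤ 0 → ∀ u ∈ X x, ∀ g, f (u * g) = f g
  right : ∀ x, IsRoot cs h x → 0 ≤ x → ∀ u ∈ X x, ∀ g, f (g * u) = f g
  tor : ∀ t ∈ T, ∀ g, f (g * t) = f g * χ t
  lev : ∀ i ∈ J, ∀ u ∈ X (-sr i), ∀ g, f (g * u) = f g
  jmp : ∀ i, i ∉ J → ∃ c : Y →₀ k, (∀ u ∈ c.support, u ∈ X (-sr i)) ∧ (c.sum fun _ a => a) = 0 ∧
    ∀ g, f (g * n i) = c.sum fun u a => a * f (g * u)

end Cfsg.Agent.H163.E65
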