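import Cfsg.Agent.H163.E65.Defs
import Cfsg.Agent.H163.E65.HW
import Cfsg.Agent.Nodes.RGDChev
import Cfsg.Agent.ChevalleyStructure.E6Min.Adjoint

/-!
# S3650: the root group datum of `E₆(5)`, the fundamental functions (helper163)

* `e6T`, `T5`, `n5`, `X5` : type, torus, `n_i`, root groups of `L5`; `h5 i t = h_{α_i}(t)`;
* `ff M N i` : the six fundamental functions of a 27 × 27 matrix `M` with inverse `N` (the highest weight of the
  27-dimensional module is `ω₆`, its vector has the index `9`).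
-/

set_option autoImplicit false

namespace Cfsg.Agent.H163.E65

open Cfsg.Lie Cfsg.Lie.ChevalleyDatum Cfsg.Agent.Nodes.RGDChev Cfsg.Agent.ChevalleyStructure
  Cfsg.Agent.ChevalleyStructure.Elts Cfsg.Agent.ChevalleyStructure.E6Min.Tables
  Cfsg.Agent.ChevalleyStructure.E6Min.Basic Cfsg.Agent.ChevalleyStructure.CoxeterGeomTypes
open scoped Matrix MatrixGroups

theorem e6T : IsType chevE6 6 CoxeterMatrix.E₆ := by simp [IsType, typeList]

/-- the torus -/
abbrev T5 : Subgroup L5 := (chevE6.diagonalSubgroup (ZMod 5)).subgroupOf (chevE6.group (ZMod 5))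

/-- the elements `n_i` -/
abbrev n5 (i : Fin 6) : L5 := ⟨nn e6T (ZMod 5) i, nn_mem_group e6T i⟩

/-- the root groups -/
abbrev X5 (x : Fin 6 → ℤ) : Subgroup L5 := (XV chevE6 6 (ZMod 5) x).subgroupOf (chevE6.group (ZMod 5))

/-- the elements `h_i(t)` -/
def h5 (i : Fin 6) (t : ZMod 5) : L5 := ⟨hG e6T.inList (chevE6.simple i) t, hG_mem_group e6T.inList _ _⟩

/-- the six fundamental functions -/
def ff (P N : Matrix I27 I27 (ZMod 5)) : Fin 6 → ZMod 5 := ![
  N (dec 18) (dec 18),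
  ∑ x : I27, (sg 71 (dec 9) : ZMod 5) * (sg 71 x : ZMod 5) * P (dec 9) x * N (sr 71 x) (sr 71 (dec 9)),
  N (dec 18) (dec 18) * N (dec 19) (dec 19) - N (dec 18) (dec 19) * N (dec 19) (dec 18),
  (P.submatrix ![dec 9, dec 12, dec 15] ![dec 9, dec 12, dec 15]).det,
  P (dec 9) (dec 9) * P (dec 12) (dec 12) - P (dec 9) (dec 12) * P (dec 12) (dec 9),
  P (dec 9) (dec 9)]

end Cfsg.Agent.H163.E65
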