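import Cfsg.Agent.H163.E65.Top

/-!
# S3650, own characteristic: highest weight functions are determined by their weights (helper163)

* `Mono` : the consequences of `HW` used; `HW.mono`; `Mono.prod`;
* `Mono.eq` : uniqueness.
-/

set_option autoImplicit false
set_option linter.unusedSectionVars false

namespace Cfsg.Agent.H163.E65

open CoxeterSystem Cfsg.Agent.ChevalleyStructure.CoxeterGeom Cfsg.Agent.Tits.Roots Cfsg.Agent.Tits.Core
  Cfsg.Agent.Tits.RootComb Cfsg.Agent.Nodes.Comb Cfsg.Agent.Nodes.Reps Cfsg.Agent.Nodes.BNOf Cfsg.Agent.Nodes.Bruhat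
  Cfsg.Agent.Nodes.OppDec Cfsg.Agent.Tits.Exchange

variable {I W Y : Type*} [Fintype I] [DecidableEq I] [Group W] [Group Y] {M : CoxeterMatrix I}

/-- monomial functions -/
structure Mono (cs : CoxeterSystem M W) {A : I → I → ℤ} (h : IsCartan M A) {T : Subgroup Y} {n : I → Y}
    (hN : NSys M T n) (X : (I → ℤ) → Subgroup Y) {k : Type*} [Field k] (f χ : Y → k) (J : Set I) : Prop where
  one : f 1 = 1
  left : ∀ u ∈ UN cs h X, ∀ g, f (u * g) = f g
  right : ∀ u ∈ RGD.Sup X (RGD.Pos cs h), ∀ g, f (g * u) = f g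
  tor : ∀ t ∈ T, ∀ g, f (g * t) = f g * χ t
  stay : ∀ i ∈ J, ∀ w g, Rp cs hN w g → 0 ≤ rep cs h w (sr i) → f (g * n i) = f g
  zero : ∀ i, i ∉ J → ∀ w g, Rp cs hN w g → 0 ≤ rep cs h w (sr i) → f (g * n i) = 0

variable {cs : CoxeterSystem M W} {A : I → I → ℤ} {h : IsCartan M A} {p : ℕ} {T : Subgroup Y} {n : I → Y}
  {X : (I → ℤ) → Subgroup Y} {k : Type*} [Field k]

/-- the left stabiliser of a function -/
def lst (f : Y → k) : Subgroup Y where
  carrier := {u | ∀ g, f (u * g) = f g}
  one_mem' := fun g => by rw [one_mul]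
  mul_mem' := by
    intro a b ha hb g
    rw [mul_assoc, ha, hb]
  inv_mem' := by
    intro a ha g
    have := ha (a⁻¹ * g)
    rw [mul_inv_cancel_left] at this
    exact this.symm

/-- the right stabiliser of a function -/
def rst (f : Y → k) : Subgroup Y where
  carrier := {u | ∀ g, f (g * u) = f g}
  one_mem' := fun g => by rw [mul_one]
  mul_mem' := by
    intro a b ha hb g
    rw [← mul_assoc, hb, ha]
  inv_mem' := by
    intro a ha g
    have := ha (g * a⁻¹)
    rw [inv_mul_cancel_right] at this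
    exact this.symm

theorem HW.left' {f χ : Y → k} {J : Set I} (H : HW cs h T n X f χ J) : ∀ u ∈ UN cs h X, ∀ g, f (u * g) = f g := by
  have : UN cs h X ≤ lst f := RGD.Sup_le fun z hz u hu g => H.left z hz.1 hz.2 u hu g
  exact fun u hu g => this hu g

theorem HW.right' {f χ : Y → k} {J : Set I} (H : HW cs h T n X f χ J) :
    ∀ u ∈ RGD.Sup X (RGD.Pos cs h), ∀ g, f (g * u) = f g := by
  have : RGD.Sup X (RGD.Pos cs h) ≤ rst f := RGD.Sup_le fun z hz u hu g => H.right z hz.1 hz.2 u hu g
  exact fun u hu g => this hu g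

theorem HW.mono (R : RGD cs h p T n X) (Q : RkOne T n X k) {f χ : Y → k} {J : Set I} (H : HW cs h T n X f χ J) :
    Mono cs h R.nsys X f χ J where
  one := H.one
  left := H.left'
  right := H.right'
  tor := H.tor
  stay := by
    intro i hi w g _ _
    have h1 := Q.rel i (-1)
    rw [neg_neg, map_one, inv_one, mul_one] at h1
    have h2 : n i = (Q.x i (((-1)⁻¹ : kˣ) : k))⁻¹ * (Q.y i ((-1 : kˣ) : k) * Q.x i (-(((-1)⁻¹ : kˣ) : k))) := by
      rw [← h1, inv_mul_cancel_left]
    have hx : ∀ t g, f (g * Q.x i t) = f g := fun t g =>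
      H.right (sr i) (isRoot_sr cs h i) (sr_nonneg i) _ ((Q.x_mem i _).2 ⟨t, rfl⟩) g
    have hx' : ∀ t g, f (g * (Q.x i t)⁻¹) = f g := fun t g =>
      H.right (sr i) (isRoot_sr cs h i) (sr_nonneg i) _ (inv_mem ((Q.x_mem i _).2 ⟨t, rfl⟩)) g
    rw [h2, ← mul_assoc, ← mul_assoc, hx, H.lev i hi _ ((Q.y_mem i _).2 ⟨_, rfl⟩), hx']
  zero := by
    intro i hi w g hg hpos
    obtain ⟨c, hc1, hc2, hc3⟩ := H.jmp i hi
    rw [hc3 g]
    have h1 : (c.sum fun u a => a * f (g * u)) = c.sum fun u a => a * f g := by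
      refine Finset.sum_congr rfl fun u hu => ?_
      show c u * f (g * u) = c u * f g
      have h2 : g * u * g⁻¹ ∈ UN cs h X := by
        have h3 := R.conj_mem hg (isRoot_sr cs h i).neg (hc1 u hu)
        exact X_le_UN ((isRoot_sr cs h i).neg.act _) (by rw [map_neg]; exact neg_nonpos.2 hpos) h3
      have h3 : g * u = g * u * g⁻¹ * g := by group
      rw [h3, H.left' _ h2]
    rw [h1]
    have h2 : (c.sum fun u a => a * f g) = (c.sum fun _ a => a) * f g := by
      unfold Finsupp.sum
      rw [Finset.sum_mul]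
    rw [h2, hc2, zero_mul]

/-- `f` is determined by `χ` and `J` -/
theorem Mono.eq [Finite W] (R : RGD cs h p T n X) (hG : GG cs h T X = ⊤) {f f' χ χ' : Y → k} {J : Set I}
    (H : Mono cs h R.nsys X f χ J) (H' : Mono cs h R.nsys X f' χ' J) (hχ : ∀ t ∈ T, χ t = χ' t) : f = f' := by
  have key : ∀ (w : W) (g : Y), Rp cs R.nsys w g → f g = f' g := by
    intro w
    induction hn : cs.length w using Nat.strong_induction_on generalizing w with
    | _ N ih =>
    intro g hg
    by_cases hw : w = 1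
    · subst hw
      have h1 := H.tor g hg.mem_of_one 1
      have h2 := H'.tor g hg.mem_of_one 1
      rw [one_mul, H.one] at h1
      rw [one_mul, H'.one] at h2
      rw [h1, h2, hχ g hg.mem_of_one]
    obtain ⟨i, hi⟩ := cs.exists_rightDescent_of_ne_one hw
    have hi' : cs.length (w * cs.simple i) < cs.length w := hi
    have hg' : Rp cs R.nsys (w * cs.simple i) (g * (n i)⁻¹) := by
      have := hg.mul (rp_simple cs R.nsys i).inv
      rwa [inv_simple] at this
    have hpos : 0 ≤ rep cs h (w * cs.simple i) (sr i) := by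
      refine nonneg_of_lt cs h _ i ?_
      rw [mul_assoc, simple_mul_simple_self, mul_one]
      exact hi'
    have e : g = g * (n i)⁻¹ * n i := by group
    by_cases hiJ : i ∈ J
    · rw [e, H.stay i hiJ _ _ hg' hpos, H'.stay i hiJ _ _ hg' hpos]
      exact ih _ (hn ▸ hi') _ rfl _ hg'
    · rw [e, H.zero i hiJ _ _ hg' hpos, H'.zero i hiJ _ _ hg' hpos]
  funext g
  obtain ⟨u, hu, w, c, hc, b, hb, rfl⟩ := birk R hG g
  rw [H.right b hb, H.left u hu, H'.right b hb, H'.left u hu, key w c hc]

/-- products of powers of monomial functions -/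
theorem Mono.prod (R : RGD cs h p T n X) {φ χ : I → Y → k} (H : ∀ i, Mono cs h R.nsys X (φ i) (χ i) {j | j ≠ i})
    (a : I → ℕ) : Mono cs h R.nsys X (fun g => ∏ i, φ i g ^ a i) (fun g => ∏ i, χ i g ^ a i) {j | a j = 0} where
  one := Finset.prod_eq_one fun i _ => by rw [(H i).one, one_pow]
  left u hu g := Finset.prod_congr rfl fun i _ => by rw [(H i).left u hu]
  right u hu g := Finset.prod_congr rfl fun i _ => by rw [(H i).right u hu]
  tor t ht g := by
    rw [← Finset.prod_mul_distrib]
    exact Finset.prod_congr rfl fun i _ => by rw [(H i).tor t ht, mul_pow]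
  stay := by
    intro i hi w g hg hpos
    refine Finset.prod_congr rfl fun j _ => ?_
    by_cases hij : i = j
    · subst hij
      have : a i = 0 := hi
      rw [this, pow_zero, pow_zero]
    · rw [(H j).stay i hij w g hg hpos]
  zero := by
    intro i hi w g hg hpos
    refine Finset.prod_eq_zero (Finset.mem_univ i) ?_
    rw [(H i).zero i (fun h0 => h0 rfl) w g hg hpos]
    exact zero_pow hi

end Cfsg.Agent.H163.E65
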