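import Cfsg.Agent.H163.E65.HW
import Cfsg.Agent.Nodes.OppDec

/-!
# S3650, own characteristic: the operators `T_i` on the `U`-fixed vectors (helper163)

* `SM H F` : the sum of `F` over a subgroup `H`; `RkOne` : parametrised root groups of rank one;
* `Ti ρ i v = ∑ a ∈ X (α_i), ρ (a n_i) v`; `Tw ρ w g v = ∑ u ∈ U_w, ρ (u g) v`, `g` over `w`;
* `ti_tw`, `tw_U`, `tw_T`, `ti_eq`, `ti_sq`;
* `exists_weight` : a common eigenvector.
-/

set_option autoImplicit false
set_option linter.unusedSectionVars false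

namespace Cfsg.Agent.H163.E65

open CoxeterSystem Cfsg.Agent.ChevalleyStructure.CoxeterGeom Cfsg.Agent.Tits.Roots Cfsg.Agent.Tits.Core
  Cfsg.Agent.Tits.RootComb Cfsg.Agent.Nodes.Comb Cfsg.Agent.Nodes.Reps Cfsg.Agent.Nodes.BNOf Cfsg.Agent.Nodes.Bruhat
  Cfsg.Agent.Nodes.OppDec

variable {I W Y : Type*} [Fintype I] [DecidableEq I] [Group W] [Group Y] {M : CoxeterMatrix I}

/-- rank one data -/
structure RkOne (T : Subgroup Y) (n : I → Y) (X : (I → ℤ) → Subgroup Y) (k : Type*) [Field k] where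
  x : I → k → Y
  y : I → k → Y
  hh : I → kˣ →* Y
  x_mem : ∀ i u, u ∈ X (sr i) ↔ ∃ t, x i t = u
  y_mem : ∀ i u, u ∈ X (-sr i) ↔ ∃ t, y i t = u
  x_add : ∀ i s t, x i (s + t) = x i s * x i t
  y_add : ∀ i s t, y i (s + t) = y i s * y i t
  x_inj : ∀ i, Function.Injective (x i)
  h_mem : ∀ i t, hh i t ∈ T
  rel : ∀ i (t : kˣ), x i ((t⁻¹ : kˣ) : k) * n i = y i t * x i (-((t⁻¹ : kˣ) : k)) * (hh i (-t))⁻¹

/-! ### sums over subgroups -/

section SM

variable {V : Type*} [AddCommMonoid V]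

open scoped Classical in
/-- the sum over a subgroup -/
noncomputable def SM [Finite Y] (H : Subgroup Y) (F : Y → V) : V :=
  letI := Fintype.ofFinite Y; ∑ a ∈ Finset.univ.filter (· ∈ H), F a

variable [Finite Y] (H : Subgroup Y)

theorem SM_congr {F G : Y → V} (hF : ∀ a ∈ H, F a = G a) : SM H F = SM H G := by
  classical
  unfold SM
  exact Finset.sum_congr rfl fun a ha => hF a (Finset.mem_filter.1 ha).2

theorem SM_left {g : Y} (hg : g ∈ H) (F : Y → V) : SM H (fun a => F (g * a)) = SM H F := by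
  classical
  unfold SM
  letI := Fintype.ofFinite Y
  refine Finset.sum_nbij' (fun a => g * a) (fun a => g⁻¹ * a) ?_ ?_ ?_ ?_ ?_
  · intro a ha; simp only [Finset.mem_filter, Finset.mem_univ, true_and] at ha ⊢; exact mul_mem hg ha
  · intro a ha; simp only [Finset.mem_filter, Finset.mem_univ, true_and] at ha ⊢; exact mul_mem (inv_mem hg) ha
  · intro a _; group
  · intro a _; group
  · intro a _; rfl

theorem SM_right {g : Y} (hg : g ∈ H) (F : Y → V) : SM H (fun a => F (a * g)) = SM H F := by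
  classical
  unfold SM
  letI := Fintype.ofFinite Y
  refine Finset.sum_nbij' (fun a => a * g) (fun a => a * g⁻¹) ?_ ?_ ?_ ?_ ?_
  · intro a ha; simp only [Finset.mem_filter, Finset.mem_univ, true_and] at ha ⊢; exact mul_mem ha hg
  · intro a ha; simp only [Finset.mem_filter, Finset.mem_univ, true_and] at ha ⊢; exact mul_mem ha (inv_mem hg)
  · intro a _; group
  · intro a _; group
  · intro a _; rfl

theorem SM_conj {g : Y} (hg : g ∈ Subgroup.normalizer (H : Set Y)) (F : Y → V) :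
    SM H (fun a => F (g * a * g⁻¹)) = SM H F := by
  classical
  unfold SM
  letI := Fintype.ofFinite Y
  refine Finset.sum_nbij' (fun a => g * a * g⁻¹) (fun a => g⁻¹ * a * g) ?_ ?_ ?_ ?_ ?_
  · intro a ha; simp only [Finset.mem_filter, Finset.mem_univ, true_and] at ha ⊢
    exact (Subgroup.mem_normalizer_iff.1 hg a).1 ha
  · intro a ha; simp only [Finset.mem_filter, Finset.mem_univ, true_and] at ha ⊢
    rw [Subgroup.mem_normalizer_iff.1 hg]
    have : g * (g⁻¹ * a * g) * g⁻¹ = a := by group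
    rwa [this]
  · intro a _; group
  · intro a _; group
  · intro a _; rfl

theorem SM_mul {H K L : Subgroup Y} {g : Y} (hm : ∀ a ∈ H, ∀ u ∈ K, a * (g * u * g⁻¹) ∈ L)
    (hi : ∀ a ∈ H, ∀ u ∈ K, ∀ a' ∈ H, ∀ u' ∈ K, a * (g * u * g⁻¹) = a' * (g * u' * g⁻¹) → a = a')
    (hs : ∀ b ∈ L, ∃ a ∈ H, ∃ u ∈ K, b = a * (g * u * g⁻¹)) (F : Y → V) :
    SM H (fun a => SM K fun u => F (a * (g * u * g⁻¹))) = SM L F := by
  classical
  unfold SM
  letI := Fintype.ofFinite Y
  rw [← Finset.sum_product']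
  refine Finset.sum_bij (fun q _ => q.1 * (g * q.2 * g⁻¹)) ?_ ?_ ?_ ?_
  · rintro ⟨a, u⟩ hq
    simp only [Finset.mem_product, Finset.mem_filter, Finset.mem_univ, true_and] at hq ⊢
    exact hm a hq.1 u hq.2
  · rintro ⟨a, u⟩ hq ⟨a', u'⟩ hq' e
    simp only [Finset.mem_product, Finset.mem_filter, Finset.mem_univ, true_and] at hq hq' e
    have h1 := hi a hq.1 u hq.2 a' hq'.1 u' hq'.2 e
    subst h1
    have h2 : u = u' := by
      have := mul_left_cancel e
      have := mul_right_cancel this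
      exact mul_left_cancel this
    rw [h2]
  · intro b hb
    simp only [Finset.mem_filter, Finset.mem_univ, true_and] at hb
    obtain ⟨a, ha, u, hu, e⟩ := hs b hb
    refine ⟨(a, u), ?_, e.symm⟩
    simp only [Finset.mem_product, Finset.mem_filter, Finset.mem_univ, true_and]
    exact ⟨ha, hu⟩
  · rintro ⟨a, u⟩ _
    rfl

theorem SM_const (v : V) : SM H (fun _ => v) = Nat.card H • v := by
  classical
  unfold SM
  letI := Fintype.ofFinite Y
  rw [Finset.sum_const]
  congr 1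
  rw [← Fintype.card_subtype, ← Nat.card_eq_fintype_card]

theorem SM_map {V' : Type*} [AddCommMonoid V'] (φ : V →+ V') (F : Y → V) : φ (SM H F) = SM H fun a => φ (F a) := by
  classical
  unfold SM
  rw [map_sum]

theorem SM_bot (F : Y → V) : SM (⊥ : Subgroup Y) F = F 1 := by
  classical
  unfold SM
  let := Fintype.ofFinite Y
  rw [Finset.sum_eq_single 1]
  · intro b hb hb1
    simp only [Finset.mem_filter, Finset.mem_univ, true_and, Subgroup.mem_bot] at hb
    exact absurd hb hb1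
  · intro h1
    exfalso
    apply h1
    simp

/-- the sum over a parametrised subgroup -/
theorem SM_param {k : Type*} [Fintype k] {x : k → Y} (hx : ∀ u, u ∈ H ↔ ∃ t, x t = u)
    (hi : Function.Injective x) (F : Y → V) : SM H F = ∑ t, F (x t) := by
  classical
  unfold SM
  letI := Fintype.ofFinite Y
  symm
  refine Finset.sum_bij (fun t _ => x t) ?_ ?_ ?_ ?_
  · intro t _
    simp only [Finset.mem_filter, Finset.mem_univ, true_and]
    exact (hx _).2 ⟨t, rfl⟩
  · intro t _ t' _ e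
    exact hi e
  · intro b hb
    simp only [Finset.mem_filter, Finset.mem_univ, true_and] at hb
    obtain ⟨t, ht⟩ := (hx b).1 hb
    exact ⟨t, Finset.mem_univ t, ht⟩
  · intro t _; rfl

end SM

/-! ### the operators -/

section Ops

variable {cs : CoxeterSystem M W} {A : I → I → ℤ} {h : IsCartan M A} {p : ℕ} {T : Subgroup Y} {n : I → Y}
  {X : (I → ℤ) → Subgroup Y} {k : Type*} [Field k] {V : Type*} [AddCommGroup V] [Module k V]
  (ρ : Y →* Module.End k V)

/-- fixed by a subgroup -/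
def Fx (H : Subgroup Y) (v : V) : Prop := ∀ u ∈ H, ρ u v = v

/-- the operator `T_i` -/
noncomputable def Ti [Finite Y] (n : I → Y) (X : (I → ℤ) → Subgroup Y) (i : I) : Module.End k V :=
  SM (X (sr i)) fun a => ρ (a * n i)

/-- the operator of `w` -/
noncomputable def Tw [Finite Y] (cs : CoxeterSystem M W) (h : IsCartan M A) (X : (I → ℤ) → Subgroup Y) (w : W)
    (g : Y) : Module.End k V := SM (RGD.Sup X (RGD.Inv cs h w)) fun u => ρ (u * g)

variable {ρ}

theorem SM_apply [Finite Y] (H : Subgroup Y) (F : Y → Module.End k V) (v : V) :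
    SM H F v = SM H fun a => F a v :=
  SM_map H (⟨⟨fun f : Module.End k V => f v, rfl⟩, fun _ _ => rfl⟩ : Module.End k V →+ V) F

theorem Ti_apply [Finite Y] (i : I) (v : V) : Ti ρ n X i v = SM (X (sr i)) fun a => ρ (a * n i) v := SM_apply _ _ _

theorem Tw_apply [Finite Y] (w : W) (g : Y) (v : V) :
    Tw ρ cs h X w g v = SM (RGD.Sup X (RGD.Inv cs h w)) fun u => ρ (u * g) v := SM_apply _ _ _

theorem mulv (a b : Y) (v : V) : ρ (a * b) v = ρ a (ρ b v) := by rw [map_mul, Module.End.mul_apply]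

/-- the stabiliser -/
def stb (ρ : Y →* Module.End k V) (v : V) : Subgroup Y where
  carrier := {u | ρ u v = v}
  one_mem' := by
    show ρ 1 v = v
    rw [map_one, Module.End.one_apply]
  mul_mem' := by
    intro a b (ha : ρ a v = v) (hb : ρ b v = v)
    show ρ (a * b) v = v
    rw [mulv, hb, ha]
  inv_mem' := by
    intro a (ha : ρ a v = v)
    show ρ a⁻¹ v = v
    conv_lhs => rw [← ha]
    rw [← mulv, inv_mul_cancel, map_one, Module.End.one_apply]

theorem mem_stb {v : V} {u : Y} : u ∈ stb ρ v ↔ ρ u v = v := Iff.rfl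

variable (R : RGD cs h p T n X)

include R

theorem ti_tw [Finite W] [Finite Y] {i : I} {w : W} {g : Y} (hw : 0 ≤ rep cs h w⁻¹ (sr i)) (v : V) :
    Ti ρ n X i (Tw ρ cs h X w g v) = Tw ρ cs h X (cs.simple i * w) (n i * g) v := by
  rw [Ti_apply, Tw_apply, Tw_apply]
  have e : ∀ a ∈ X (sr i), ρ (a * n i) (SM (RGD.Sup X (RGD.Inv cs h w)) fun u => ρ (u * g) v) =
      SM (RGD.Sup X (RGD.Inv cs h w)) fun u => (fun b => ρ (b * (n i * g)) v) (a * (n i * u * (n i)⁻¹)) := by
    intro a _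
    rw [← LinearMap.toAddMonoidHom_coe, SM_map]
    refine SM_congr _ fun u _ => ?_
    rw [LinearMap.toAddMonoidHom_coe, ← mulv]
    congr 2
    group
  rw [SM_congr _ e]
  have hneg : rep cs h (cs.simple i * w)⁻¹ (sr i) ≤ 0 := by
    rw [mul_inv_rev, inv_simple, rep_mul_apply, rep_simple_sr, map_neg]
    exact neg_nonpos.2 hw
  have hsw : cs.simple i * (cs.simple i * w) = w := by rw [← mul_assoc, simple_mul_simple_self, one_mul]
  have hmem : sr i ∈ RGD.Inv cs h (cs.simple i * w) := (RGD.mem_inv_iff hneg).2 (Or.inl rfl)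
  have hU : RGD.Sup X (RGD.Inv cs h w) ≤ RGD.B cs h T X :=
    le_trans (RGD.Sup_mono (S := RGD.Inv cs h w) (S' := RGD.Pos cs h) fun z hz => ⟨hz.1, hz.2.1⟩) RGD.U_le_B
  refine SM_mul ?_ ?_ ?_ (fun b => ρ (b * (n i * g)) v)
  · intro a ha u hu
    refine mul_mem (RGD.le_Sup hmem ha) ?_
    refine conj_mem_Sup R (rp_simple cs R.nsys i) (fun x hx => hx.1) (fun x hx => ?_) hu
    rw [RGD.mem_inv_iff hneg]
    right
    rw [← rep_mul_apply, simple_mul_simple_self, map_one, Module.End.one_apply, hsw]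
    exact hx
  · intro a ha u hu a' ha' u' hu' e1
    have h1 : a'⁻¹ * a = n i * (u' * u⁻¹) * (n i)⁻¹ := by
      have h2 : a'⁻¹ * a = a'⁻¹ * (a * (n i * u * (n i)⁻¹)) * (n i * u⁻¹ * (n i)⁻¹) := by group
      rw [h2, e1]; group
    have h2 : a'⁻¹ * a = 1 := by
      have hk : Rp cs R.nsys (cs.simple i) (n i)⁻¹ := by
        have := (rp_simple cs R.nsys i).inv
        rwa [inv_simple] at this
      refine eq_one_of_conj_mem_B R (mul_mem (inv_mem ha') ha) hk ?_
      rw [h1]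
      have h3 : (n i)⁻¹ * (n i * (u' * u⁻¹) * (n i)⁻¹) * (n i)⁻¹⁻¹ = u' * u⁻¹ := by group
      rw [h3]
      exact mul_mem (hU hu') (inv_mem (hU hu))
    exact (inv_mul_eq_one.1 h2).symm
  · intro b hb
    obtain ⟨r, hr, u, hu, e1⟩ := exists_mul R (S := RGD.Inv cs h (cs.simple i * w)) (i := i)
      (fun x hx => ⟨hx.1, hx.2.1⟩) hmem (fun y hy _ z hz => ⟨hz.1, RGD.nonneg_of_btwn (sr_nonneg i) hy.2.1 hz,
        RGD.nonpos_of_btwn hneg hy.2.2 (hz.act _)⟩) (inv_mem hb)
    refine ⟨u⁻¹, inv_mem hu, (n i)⁻¹ * r⁻¹ * n i, ?_, ?_⟩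
    · refine conj_mem_Sup' R (rp_simple cs R.nsys i) (fun x hx => hx.1.1) (fun x hx => ?_) (inv_mem hr)
      rw [inv_simple]
      have h2 := ((RGD.mem_inv_iff hneg).1 hx.1).resolve_left hx.2
      rwa [hsw] at h2
    · have h2 : b = (r * u)⁻¹ := by rw [← e1, inv_inv]
      rw [h2]; group

theorem ti_U [Finite W] [Finite Y] (i : I) {v : V} (hv : Fx ρ (RGD.Sup X (RGD.Pos cs h)) v) :
    Fx ρ (RGD.Sup X (RGD.Pos cs h)) (Ti ρ n X i v) := by
  have key : RGD.Sup X (RGD.Pos cs h) ≤ stb ρ (Ti ρ n X i v) := by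
    rw [R.Upos_eq i]
    refine sup_le ?_ ?_
    · intro b hb
      rw [mem_stb, Ti_apply, ← LinearMap.toAddMonoidHom_coe, SM_map]
      have e : ∀ a ∈ X (sr i), (ρ b).toAddMonoidHom (ρ (a * n i) v) = (fun c => ρ (c * n i) v) (b * a) := by
        intro a _
        rw [LinearMap.toAddMonoidHom_coe, ← mulv]
        show _ = ρ (b * a * n i) v
        rw [mul_assoc]
      rw [SM_congr _ e, SM_left _ hb (fun c => ρ (c * n i) v)]
    · intro b hb
      rw [mem_stb, Ti_apply, ← LinearMap.toAddMonoidHom_coe, SM_map]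
      refine SM_congr _ fun a ha => ?_
      rw [LinearMap.toAddMonoidHom_coe, ← mulv]
      have h1 : a⁻¹ * b * a ∈ RGD.Sup X (RGD.PosNe cs h i) := by
        have h2 := (Subgroup.mem_normalizer_iff.1 (inv_mem (R.X_le_normalizer_V i ha)) b).1 hb
        rwa [inv_inv] at h2
      have h2 : (n i)⁻¹ * (a⁻¹ * b * a) * n i ∈ RGD.Sup X (RGD.PosNe cs h i) := by
        rw [← R.cj_n_V i, mem_cj] at h1
        exact h1
      have h3 : b * (a * n i) = (a * n i) * ((n i)⁻¹ * (a⁻¹ * b * a) * n i) := by group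
      rw [h3, mulv, hv _ (RGD.Sup_mono (S := RGD.PosNe cs h i) (S' := RGD.Pos cs h) (fun z hz => ⟨hz.1, hz.2.1⟩) h2)]
  exact fun u hu => key hu

theorem fx_T {t : Y} (ht : t ∈ T) {v : V} (hv : Fx ρ (RGD.Sup X (RGD.Pos cs h)) v) :
    Fx ρ (RGD.Sup X (RGD.Pos cs h)) (ρ t v) := by
  intro u hu
  have h1 := (Subgroup.mem_normalizer_iff.1 (inv_mem (R.T_le_normalizer_U ht)) u).1 hu
  rw [← mulv]
  have h2 : u * t = t * (t⁻¹ * u * t⁻¹⁻¹) := by group
  rw [h2, mulv, hv _ h1]

theorem tw_U [Finite W] [Finite Y] {v : V} (hv : Fx ρ (RGD.Sup X (RGD.Pos cs h)) v) : ∀ (w : W) {g : Y},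
    Rp cs R.nsys w g → Fx ρ (RGD.Sup X (RGD.Pos cs h)) (Tw ρ cs h X w g v) := by
  intro w
  induction hn : cs.length w using Nat.strong_induction_on generalizing w with
  | _ N ih =>
  intro g hg
  by_cases hw1 : w = 1
  · subst hw1
    have h1 : Tw ρ cs h X 1 g v = ρ g v := by
      rw [Tw_apply, RGD.inv_one_eq, Sup_empty, SM_bot, one_mul]
    rw [h1]
    exact fx_T R hg.mem_of_one hv
  obtain ⟨i, hi⟩ := cs.exists_leftDescent_of_ne_one hw1
  have hi' : cs.length (cs.simple i * w) < cs.length w := hi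
  have hpos : 0 ≤ rep cs h (cs.simple i * w)⁻¹ (sr i) := by
    refine nonneg_of_lt cs h _ i ?_
    rw [mul_inv_rev, inv_simple, mul_assoc, simple_mul_simple_self, mul_one, cs.length_inv]
    rw [← cs.length_inv, mul_inv_rev, inv_simple] at hi'
    exact hi'
  have h1 := ti_tw (ρ := ρ) (g := (n i)⁻¹ * g) R hpos v
  have hsw : cs.simple i * (cs.simple i * w) = w := by rw [← mul_assoc, simple_mul_simple_self, one_mul]
  rw [hsw, mul_inv_cancel_left] at h1
  rw [← h1]
  refine ti_U R i (ih _ (hn ▸ hi') _ rfl ?_)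
  have := (rp_simple cs R.nsys i).inv.mul hg
  rwa [inv_simple] at this

theorem tw_T [Finite W] [Finite Y] {w : W} {g : Y} {v : V} {χ : Y → k}
    (hg : Rp cs R.nsys w g) (hχ : ∀ t ∈ T, ρ t v = χ t • v) : ∀ t ∈ T, ρ t (Tw ρ cs h X w g v) =
      χ (g⁻¹ * t * g) • Tw ρ cs h X w g v := by
  intro t ht
  have ht' : g⁻¹ * t * g ∈ T := by
    have h1 := mem_normalizer_iff_cj.1 hg.inv.mem_normalizer
    have h2 : g⁻¹ * t * g⁻¹⁻¹ ∈ cj g⁻¹ T := conj_mem_cj.2 ht
    rwa [h1, inv_inv] at h2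
  have hn : t ∈ Subgroup.normalizer (RGD.Sup X (RGD.Inv cs h w) : Set Y) :=
    R.T_le_normalizer (fun x hx => hx.1) ht
  rw [Tw_apply, ← LinearMap.toAddMonoidHom_coe, SM_map]
  have e : ∀ u ∈ RGD.Sup X (RGD.Inv cs h w), (ρ t).toAddMonoidHom (ρ (u * g) v) =
      (fun c => χ (g⁻¹ * t * g) • ρ (c * g) v) (t * u * t⁻¹) := by
    intro u _
    rw [LinearMap.toAddMonoidHom_coe, ← mulv]
    have h1 : t * (u * g) = (t * u * t⁻¹ * g) * (g⁻¹ * t * g) := by group
    rw [h1, mulv, hχ _ ht', map_smul]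
  rw [SM_congr _ e, SM_conj _ hn (fun c => χ (g⁻¹ * t * g) • ρ (c * g) v)]
  exact (SM_map _ (DistribSMul.toAddMonoidHom V (χ (g⁻¹ * t * g))) _).symm

end Ops

end Cfsg.Agent.H163.E65
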