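import Cfsg.Agent.H163.E65.OwnChar
import Cfsg.Agent.H138.E65.Cert
import Cfsg.Agent.H890.E65.Fund

/-!
# S3650, own characteristic: elements of order 313 have fixed vectors (helper163)
-/

set_option autoImplicit false

namespace Cfsg.Agent.H163.E65

universe v

/-- **own characteristic** -/
theorem fixes_313 : Fixes.{0, v} L5 5 313 := by
  obtain ⟨φ, χ, h1, h2, h3⟩ := Cfsg.Agent.H890.E65.exists_fund (CoxeterMatrix.toCoxeterSystem CoxeterMatrix.E₆)
  exact fixes_own h1 h2 h3 Cfsg.Agent.H138.E65.cert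

end Cfsg.Agent.H163.E65
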