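import Cfsg.Agent.H163.E65.Rk
import Cfsg.Agent.H689.ExcSix

/-!
# S3650, own characteristic (helper163)

* `fixes_own` : from the fundamental functions and the certificate to the fixed vectors of elements of order 313.
-/

set_option autoImplicit false

namespace Cfsg.Agent.H163.E65

open CoxeterSystem Cfsg.Lie Cfsg.Lie.ChevalleyDatum Cfsg.Agent.Nodes.RGDChev Cfsg.Agent.ChevalleyStructure
  Cfsg.Agent.ChevalleyStructure.Elts Cfsg.Agent.ChevalleyStructure.MonomialNormal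
  Cfsg.Agent.ChevalleyStructure.CoxeterGeomTypes Cfsg.Agent.Tits.Roots Cfsg.Agent.Tits.RootComb
  Cfsg.Agent.Nodes.BNOf Cfsg.Agent.Nodes.Bruhat Cfsg.Agent.Nodes.Reps Cfsg.Agent.ChevalleyStructure.CoxeterGeom
open Cfsg.Agent.ChevalleyStructure.E6Min.Basic (Zgrp)
open Cfsg.Agent.ChevalleyStructure.E6Min.Adjoint (ad)

universe v

section Chars

variable {W : Type*} [Group W] {cs : CoxeterSystem CoxeterMatrix.E₆ W}

/-- the values of the characters -/
theorem pow_of_mul {m : ZMod 5 → ZMod 5} (h1 : m 1 = 1) (hm : ∀ s t, s ≠ 0 → t ≠ 0 → m (s * t) = m s * m t) :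
    ∃ a : ℕ, a < 4 ∧ ∀ t, t ≠ 0 → m t = t ^ a := by
  have h2 : (2 : ZMod 5) ≠ 0 := by decide
  have h4 : (4 : ZMod 5) ≠ 0 := by decide
  have h3 : (3 : ZMod 5) ≠ 0 := by decide
  have e4 := hm 2 2 h2 h2
  have e3 := hm 2 4 h2 h4
  have e1 := hm 2 3 h2 h3
  have f4 : (2 : ZMod 5) * 2 = 4 := by decide
  have f3 : (2 : ZMod 5) * 4 = 3 := by decide
  have f1 : (2 : ZMod 5) * 3 = 1 := by decide
  rw [f4] at e4
  rw [f3, e4] at e3
  rw [f1, e3, h1] at e1
  have key : ∀ c : ZMod 5, 1 = c * (c * (c * c)) → ∃ a : Fin 4, c = 2 ^ (a : ℕ) ∧ c * (c * c) = 3 ^ (a : ℕ) ∧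
      c * c = 4 ^ (a : ℕ) := by decide
  obtain ⟨a, ha2, ha3, ha4⟩ := key _ e1
  refine ⟨a, a.2, fun t ht => ?_⟩
  have ht' : t = 1 ∨ t = 2 ∨ t = 3 ∨ t = 4 := by
    revert t; decide
  rcases ht' with rfl | rfl | rfl | rfl
  · rw [h1, one_pow]
  · exact ha2
  · rw [e3]; exact ha3
  · rw [e4]; exact ha4

theorem HW.chi_mul {f χ : L5 → ZMod 5} {J : Set (Fin 6)} (H : HW cs e6T.isCartan T5 n5 X5 f χ J) {s t : L5}
    (hs : s ∈ T5) (ht : t ∈ T5) : χ (s * t) = χ s * χ t := by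
  have h1 := H.tor _ (mul_mem hs ht) 1
  have h2 := H.tor _ ht s
  have h3 := H.tor _ hs 1
  rw [one_mul, H.one, one_mul] at h1 h3
  rw [← h1, h2, h3]

theorem HW.chi_one {f χ : L5 → ZMod 5} {J : Set (Fin 6)} (H : HW cs e6T.isCartan T5 n5 X5 f χ J) : χ 1 = 1 := by
  have h3 := H.tor _ (one_mem _) 1
  rw [one_mul, H.one, one_mul] at h3
  exact h3.symm

/-- the exponents of a highest weight function -/
theorem HW.exists_exp {f χ : L5 → ZMod 5} {J : Set (Fin 6)} (H : HW cs e6T.isCartan T5 n5 X5 f χ J) :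
    ∃ a : Fin 6 → Fin 5, J = {j | ((a j : Fin 5) : ℕ) = 0} ∧ ∀ i (t : ZMod 5), t ≠ 0 → χ (h5 i t) = t ^ (a i : ℕ) := by
  classical
  have hX : ∀ (i : Fin 6) (t : ZMod 5) (g : L5),
      f (g * ⟨xG e6T.inList (chevE6.simple i) t, xG_mem_group _ _ _⟩) = f g := by
    intro i t g
    exact H.right (sr i) (isRoot_sr cs e6T.isCartan i) (sr_nonneg i) _ ((mem_X5_sr i _).2 ⟨t, rfl⟩) g
  have key : ∀ i, ∃ a : Fin 5, (i ∈ J ↔ (a : ℕ) = 0) ∧ ∀ t : ZMod 5, t ≠ 0 → χ (h5 i t) = t ^ (a : ℕ) := by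
    intro i
    by_cases hi : i ∈ J
    · refine ⟨0, ⟨fun _ => rfl, fun _ => hi⟩, fun t ht => ?_⟩
      rw [Fin.val_zero, pow_zero]
      have h1 : ∀ t, (⟨xG e6T.inList (chevE6.simple i) t, xG_mem_group _ _ _⟩ : L5) ∈ rst f := fun t g => hX i t g
      have h2 : ∀ t, (⟨xG e6T.inList (chevE6.neg (chevE6.simple i)) t, xG_mem_group _ _ _⟩ : L5) ∈ rst f :=
        fun t g => H.lev i hi _ ((mem_X5_neg i _).2 ⟨t, rfl⟩) g
      have h3 : ∀ t, (⟨nG e6T.inList (chevE6.simple i) t, nG_mem_group _ _ _⟩ : L5) ∈ rst f := by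
        intro t
        have h4 : (⟨nG e6T.inList (chevE6.simple i) t, nG_mem_group _ _ _⟩ : L5) =
            ⟨xG e6T.inList (chevE6.simple i) t, xG_mem_group _ _ _⟩ *
            (⟨xG e6T.inList (chevE6.neg (chevE6.simple i)) (-t⁻¹), xG_mem_group _ _ _⟩ *
            ⟨xG e6T.inList (chevE6.simple i) t, xG_mem_group _ _ _⟩) := Subtype.ext (nG_def _ _ _)
        rw [h4]
        exact mul_mem (h1 _) (mul_mem (h2 _) (h1 _))
      have h5' : h5 i t ∈ rst f := by
        have h6 : h5 i t = ⟨nG e6T.inList (chevE6.simple i) t, nG_mem_group _ _ _⟩ *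
            (⟨nG e6T.inList (chevE6.simple i) (-1), nG_mem_group _ _ _⟩ : L5) := Subtype.ext (hG_def _ _ _)
        rw [h6]
        exact mul_mem (h3 _) (h3 _)
      have h6 := h5' 1
      rw [H.tor _ (h5_mem i ht), H.one, one_mul] at h6
      exact h6
    · obtain ⟨a, ha, hm⟩ := pow_of_mul (m := fun t => χ (h5 i t)) (by rw [h5_one, H.chi_one])
        (fun s t hs ht => by rw [← h5_mul i hs ht, H.chi_mul (h5_mem i hs) (h5_mem i ht)])
      by_cases ha0 : a = 0
      · refine ⟨4, ⟨fun h0 => absurd h0 hi, fun h0 => absurd h0 (by decide)⟩, fun t ht => ?_⟩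
        rw [hm t ht, ha0, pow_zero]
        revert t; decide
      · refine ⟨⟨a, by omega⟩, ⟨fun h0 => absurd h0 hi, fun h0 => absurd h0 ha0⟩, fun t ht => hm t ht⟩
  choose a ha1 ha2 using key
  exact ⟨a, Set.ext fun i => ha1 i, ha2⟩

/-- **every highest weight function is a product of the fundamental ones** -/
theorem HW.eq_prod {f χ : L5 → ZMod 5} {J : Set (Fin 6)} (H : HW cs e6T.isCartan T5 n5 X5 f χ J)
    {φ χ' : Fin 6 → L5 → ZMod 5} (Hφ : ∀ i, HW cs e6T.isCartan T5 n5 X5 (φ i) (χ' i) {j | j ≠ i})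
    (hχ : ∀ i j (t : ZMod 5), t ≠ 0 → χ' i (h5 j t) = if i = j then t else 1) :
    ∃ a : Fin 6 → Fin 5, J = {j | ((a j : Fin 5) : ℕ) = 0} ∧ f = fun g => ∏ i, φ i g ^ (a i : ℕ) := by
  obtain ⟨a, hJ, ha⟩ := H.exists_exp
  refine ⟨a, hJ, ?_⟩
  have : Finite W := finite_W e6T cs
  have R : RGD cs e6T.isCartan 5 T5 n5 X5 := rgd (K := ZMod 5) e6T cs 5
  have M1 : Mono cs e6T.isCartan R.nsys X5 f χ J := H.mono R rk5
  have M2 := Mono.prod (cs := cs) (h := e6T.isCartan) R (φ := φ) (χ := χ') (fun i => (Hφ i).mono R rk5)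
    (fun i => (a i : ℕ))
  rw [← hJ] at M2
  refine M1.eq R (GG_top cs) M2 ?_
  intro t ht
  -- the subgroup on which the characters agree
  let K : Subgroup L5 :=
    { carrier := {t | t ∈ T5 ∧ χ t = ∏ i, χ' i t ^ (a i : ℕ)}
      one_mem' := ⟨one_mem _, by
        rw [H.chi_one]
        symm
        exact Finset.prod_eq_one fun i _ => by rw [(Hφ i).chi_one, one_pow]⟩
      mul_mem' := by
        rintro s t ⟨hs, hs'⟩ ⟨ht, ht'⟩
        refine ⟨mul_mem hs ht, ?_⟩
        rw [H.chi_mul hs ht, hs', ht', ← Finset.prod_mul_distrib]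
        exact Finset.prod_congr rfl fun i _ => by rw [(Hφ i).chi_mul hs ht, mul_pow]
      inv_mem' := by
        rintro t ⟨ht, ht'⟩
        refine ⟨inv_mem ht, ?_⟩
        have h1 := H.chi_mul (inv_mem ht) ht
        rw [inv_mul_cancel, H.chi_one] at h1
        have h2 : (∏ i, χ' i t⁻¹ ^ (a i : ℕ)) * ∏ i, χ' i t ^ (a i : ℕ) = 1 := by
          rw [← Finset.prod_mul_distrib]
          refine Finset.prod_eq_one fun i _ => ?_
          rw [← mul_pow, ← (Hφ i).chi_mul (inv_mem ht) ht, inv_mul_cancel, (Hφ i).chi_one, one_pow]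
        rw [← ht'] at h2
        have h3 : χ t ≠ 0 := by
          intro h0
          rw [h0, mul_zero] at h2
          exact zero_ne_one h2
        exact mul_right_cancel₀ h3 (h1.symm.trans h2.symm) }
  have h1 : T5 ≤ K := by
    refine T5_le fun j t ht => ⟨h5_mem j ht, ?_⟩
    rw [ha j t ht]
    symm
    rw [Finset.prod_eq_single j]
    · rw [hχ j j t ht, if_pos rfl]
    · intro i _ hij
      rw [hχ i j t ht, if_neg hij, one_pow]
    · intro h0; exact absurd (Finset.mem_univ j) h0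
  exact (h1 ht).2

end Chars

/-- the torus is abelian -/
theorem T5_comm : ∀ s ∈ T5, ∀ t ∈ T5, s * t = t * s := by
  intro s hs t ht
  have h1 : T5 ≤ Subgroup.centralizer {t} := by
    have h2 : ∀ i (a : ZMod 5), a ≠ 0 → ∀ j (b : ZMod 5), b ≠ 0 → h5 i a * h5 j b = h5 j b * h5 i a := by
      intro i a ha j b hb
      apply Subtype.ext
      apply Units.ext
      show ((hG e6T.inList (chevE6.simple i) a * hG e6T.inList (chevE6.simple j) b : GL chevE6.Idx (ZMod 5)) :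
        Matrix chevE6.Idx chevE6.Idx (ZMod 5)) = ((hG e6T.inList (chevE6.simple j) b *
        hG e6T.inList (chevE6.simple i) a : GL chevE6.Idx (ZMod 5)) : Matrix chevE6.Idx chevE6.Idx (ZMod 5))
      rw [Units.val_mul, Units.val_mul, coe_hG, coe_hG, Cfsg.Agent.S1033.result chevE6 e6T.inList i (lt_rank6 i) a ha,
        Cfsg.Agent.S1033.result chevE6 e6T.inList j (lt_rank6 j) b hb, Matrix.diagonal_mul_diagonal,
        Matrix.diagonal_mul_diagonal]
      congr 1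
      funext x
      exact mul_comm _ _
    refine T5_le fun i a ha => ?_
    rw [Subgroup.mem_centralizer_singleton_iff]
    have h3 : T5 ≤ Subgroup.centralizer {h5 i a} := by
      refine T5_le fun j b hb => ?_
      rw [Subgroup.mem_centralizer_singleton_iff]
      exact h2 j b hb i a ha
    have h4 := h3 ht
    rw [Subgroup.mem_centralizer_singleton_iff] at h4
    exact h4.symm
  have h2 := h1 hs
  rwa [Subgroup.mem_centralizer_singleton_iff] at h2

theorem pow_four {G : Type*} [Group G] {s t : G} (h : s * t = t * s) (hs : s ^ 4 = 1) (ht : t ^ 4 = 1) :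
    (s * t) ^ 4 = 1 := by
  rw [(show Commute s t from h).mul_pow, hs, ht, one_mul]

theorem T5_pow : ∀ t ∈ T5, t ^ (Fintype.card (ZMod 5) - 1) = 1 := by
  intro t ht
  rw [ZMod.card]
  let K : Subgroup L5 :=
    { carrier := {t | t ∈ T5 ∧ t ^ 4 = 1}
      one_mem' := ⟨one_mem _, one_pow _⟩
      mul_mem' := fun {s t} hs ht => ⟨mul_mem hs.1 ht.1, pow_four (T5_comm s hs.1 t ht.1) hs.2 ht.2⟩
      inv_mem' := fun {t} ht => ⟨inv_mem ht.1, by rw [inv_pow, ht.2, inv_one]⟩ }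
  have h1 : T5 ≤ K := by
    refine T5_le fun j t ht => ⟨h5_mem j ht, ?_⟩
    have h2 : ∀ m : ℕ, h5 j t ^ m = h5 j (t ^ m) := by
      intro m
      induction m with
      | zero => rw [pow_zero, pow_zero, h5_one]
      | succ m ih => rw [pow_succ, ih, h5_mul j (pow_ne_zero _ ht) ht, pow_succ]
    rw [h2]
    have h3 : t ^ (5 - 1) = 1 := ZMod.pow_card_sub_one_eq_one ht
    rw [show (4 : ℕ) = 5 - 1 from rfl, h3, h5_one]
  exact (h1 ht).2

/-- **the fixed vectors of elements of order 313 in characteristic 5** -/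
theorem fixes_own {φ χ' : Fin 6 → L5 → ZMod 5}
    (hφ : ∀ i (g : Zgrp (ZMod 5)), φ i (ad (ZMod 5) g) = ff g.1.1 (g⁻¹).1.1 i)
    (Hφ : ∀ i, HW (CoxeterMatrix.toCoxeterSystem CoxeterMatrix.E₆) e6T.isCartan T5 n5 X5 (φ i) (χ' i) {j | j ≠ i})
    (hχ : ∀ i j (t : ZMod 5), t ≠ 0 → χ' i (h5 j t) = if i = j then t else 1)
    (cert : ∃ s : Zgrp (ZMod 5), orderOf s = 313 ∧ ∀ a : Fin 6 → Fin 5, a ≠ 0 → ∃ g h : Zgrp (ZMod 5),
      ∑ j ∈ Finset.range 313, ∏ i, ff (g * s ^ j * h).1.1 ((g * s ^ j * h)⁻¹).1.1 i ^ (a i : ℕ) ≠ 0) :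
    Fixes.{0, v} L5 5 313 := by
  classical
  intro V _ _ _ ρ₀ hV
  let m5 : Module (ZMod 5) V := AddCommGroup.zmodModule hV
  let ρ : L5 →* Module.End (ZMod 5) V :=
    { toFun := fun g => (ρ₀ g).toZModLinearMap 5
      map_one' := by
        ext v
        show ρ₀ 1 v = v
        rw [map_one]; rfl
      map_mul' := fun a b => by
        ext v
        show ρ₀ (a * b) v = ρ₀ a (ρ₀ b v)
        rw [map_mul]; rfl }
  have hρ : ∀ g v, ρ g v = ρ₀ g v := fun _ _ => rfl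
  have hfinL : Finite L5 := inferInstance
  have : Finite (CoxeterMatrix.E₆).Group := finite_W e6T (CoxeterMatrix.toCoxeterSystem CoxeterMatrix.E₆)
  have R : RGD (CoxeterMatrix.toCoxeterSystem CoxeterMatrix.E₆) e6T.isCartan 5 T5 n5 X5 :=
    rgd (K := ZMod 5) e6T (CoxeterMatrix.toCoxeterSystem CoxeterMatrix.E₆) 5
  obtain ⟨v, ξ, χ, J, hv, H, hU, hn⟩ := curtis R rk5 (GG_top _) T5_comm T5_pow ρ
  obtain ⟨s, hs, hc⟩ := cert
  have hs1 : orderOf (ad (ZMod 5) s) = 313 := by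
    have : Fact (Nat.Prime 313) := ⟨by norm_num⟩
    refine orderOf_eq_prime (by rw [← map_pow, ← hs, pow_orderOf_eq_one, map_one]) ?_
    intro h1
    have h2 := Cfsg.Agent.H689.pow_eq_one_of_ker (MonoidHom.mem_ker.2 h1)
    have h3 := orderOf_dvd_of_pow_eq_one h2
    rw [hs, ZMod.card] at h3
    exact absurd (Nat.le_of_dvd (by norm_num) h3) (by norm_num)
  refine ⟨ad (ZMod 5) s, hs1, ?_⟩
  obtain ⟨a, hJ, hf⟩ := H.eq_prod Hφ hχ
  by_cases ha : a = 0
  · -- a fixed vector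
    refine ⟨v, hv, ?_⟩
    have hJu : ∀ i, i ∈ J := by
      intro i
      rw [hJ, ha]; rfl
    have hstab : ∀ g : L5, g ∈ stb ρ v := by
      intro g
      have hN : Subgroup.closure (Set.range n5) ≤ stb ρ v := by
        rw [Subgroup.closure_le]
        rintro _ ⟨i, rfl⟩
        exact hn i (hJu i)
      have h1 : Cfsg.Agent.Nodes.RGDLib.G1 (CoxeterMatrix.toCoxeterSystem CoxeterMatrix.E₆) e6T.isCartan X5 ≤ stb ρ v := by
        refine RGD.Sup_le ?_
        rintro _ ⟨w, i, rfl⟩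
        obtain ⟨k, hk, hr⟩ := exists_rp_closure (cs := CoxeterMatrix.toCoxeterSystem CoxeterMatrix.E₆) (hN := R.nsys) w
        rw [← R.conj_rp hr (isRoot_sr _ _ i)]
        intro u hu
        rw [mem_cj] at hu
        have h2 : k⁻¹ * u * k ∈ stb ρ v := hU _ (RGD.le_Sup (S := RGD.Pos _ _) ⟨isRoot_sr _ _ i, sr_nonneg i⟩ hu)
        have h3 : u = k * (k⁻¹ * u * k) * k⁻¹ := by group
        rw [h3]
        exact mul_mem (mul_mem (hN hk) h2) (inv_mem (hN hk))
      rw [G1_eq_top e6T (CoxeterMatrix.toCoxeterSystem CoxeterMatrix.E₆) (K := ZMod 5)] at h1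
      exact h1 (Subgroup.mem_top g)
    exact hstab _
  · obtain ⟨g, h, hgh⟩ := hc a ha
    set z : V := ∑ j ∈ Finset.range 313, ρ (ad (ZMod 5) s ^ j) (ρ (ad (ZMod 5) h) v) with hz
    refine ⟨z, ?_, ?_⟩
    · intro hz0
      apply hgh
      have h1 : ξ (ρ (ad (ZMod 5) g) z) = 0 := by rw [hz0, map_zero, map_zero]
      rw [hz, map_sum, map_sum] at h1
      rw [← h1]
      refine Finset.sum_congr rfl fun j _ => ?_
      rw [← mulv, ← mulv, ← map_pow, ← map_mul, ← map_mul]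
      have h2 := congrFun hf (ad (ZMod 5) (g * s ^ j * h))
      rw [h2]
      exact Finset.prod_congr rfl fun i _ => by rw [hφ]
    · show ρ (ad (ZMod 5) s) z = z
      rw [hz, map_sum]
      set F : ℕ → V := fun j => ρ (ad (ZMod 5) s ^ j) (ρ (ad (ZMod 5) h) v) with hF
      have h1 : ∀ j, ρ (ad (ZMod 5) s) (F j) = F (j + 1) := by
        intro j
        rw [hF]
        show ρ (ad (ZMod 5) s) (ρ (ad (ZMod 5) s ^ j) _) = ρ (ad (ZMod 5) s ^ (j + 1)) _
        rw [← mulv, ← pow_succ']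
      have h2 : F 313 = F 0 := by
        rw [hF]
        show ρ (ad (ZMod 5) s ^ 313) _ = ρ (ad (ZMod 5) s ^ 0) _
        rw [← hs1, pow_orderOf_eq_one, pow_zero]
      have h4 := Finset.sum_range_succ F 313
      rw [Finset.sum_range_succ', h2] at h4
      have h5 := add_right_cancel h4
      rw [← h5]
      exact Finset.sum_congr rfl fun j _ => h1 j

end Cfsg.Agent.H163.E65
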