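import Cfsg.Agent.H163.E65.Defs
import Cfsg.Agent.H689.ExcSix
import Cfsg.Agent.ChevalleyStructure.E6Min.Torus

/-!
# S3650: the group of the cubic form over the field with 5 elements is `E₆(5)` (helper163)
-/

set_option autoImplicit false

namespace Cfsg.Agent.H163.E65

open Cfsg.Lie Cfsg.Agent.ChevalleyStructure.E6Min.Basic Cfsg.Agent.ChevalleyStructure.E6Min.Adjoint
  Cfsg.Agent.ChevalleyStructure.E6Min.Tables Cfsg.Agent.ChevalleyStructure.E6Min.Torus
  Cfsg.Agent.ChevalleyStructure.E6Min.Forms Matrix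

theorem ad5_injective : Function.Injective (ad (ZMod 5)) := by
  rw [← MonoidHom.ker_eq_bot_iff, Subgroup.eq_bot_iff_forall]
  intro g hg
  have h0 : ∀ r < 72, ((g : GL I27 (ZMod 5)) : Matrix I27 I27 (ZMod 5)) * Nm (ZMod 5) r =
      Nm (ZMod 5) r * ((g : GL I27 (ZMod 5)) : Matrix I27 I27 (ZMod 5)) := fun r hr =>
    comm_B_of_ker (MonoidHom.mem_ker.1 hg) (Sum.inr ⟨r, hr⟩)
  have h1 := Cfsg.Agent.H689.scalar_of_comm h0
  set c := ((g : GL I27 (ZMod 5)) : Matrix I27 I27 (ZMod 5)) (dec 0) (dec 0) with hc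
  have hgE : (g : GL I27 (ZMod 5)) ∈ E6univ (ZMod 5) := by
    rw [← Zgrp_eq (by rw [ZMod.card]; norm_num)]
    exact g.2
  have h2 : ∀ x, ((g : GL I27 (ZMod 5)) : Matrix I27 I27 (ZMod 5)) *ᵥ e (ZMod 5) x = c • e (ZMod 5) x := by
    intro x
    rw [h1]
    ext y
    rw [Matrix.mulVec_diagonal, Pi.smul_apply, smul_eq_mul]
  obtain ⟨m, k, hmk⟩ : ∃ m k : I27, rel m k = 2 := by decide +kernel
  have h3 := diag_rel hgE h2 hmk
  have h4 : ∀ a : ZMod 5, a * a * a = 1 → a = 1 := by decide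
  have h5 := h4 c h3
  apply Subtype.ext
  apply Units.ext
  rw [h1, h5]
  exact diagonal_one

theorem Q5_equiv : Nonempty (Q5 ≃* L5) := by
  have h1 : Zgrp (ZMod 5) = E6univ (ZMod 5) := Zgrp_eq (by rw [ZMod.card]; norm_num)
  exact ⟨(MulEquiv.subgroupCongr h1.symm).trans (MulEquiv.ofBijective (ad (ZMod 5)) ⟨ad5_injective, ad_surjective⟩)⟩

end Cfsg.Agent.H163.E65
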