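import Cfsg.Agent.H163.E65.Inst
import Cfsg.Agent.H163.E65.Mono
import Cfsg.Agent.S1033
import Cfsg.Agent.S1034

/-!
# S3650, own characteristic: the rank one data and the torus of `E₆(5)` (helper163)

* `rk5 : RkOne T5 n5 X5 (ZMod 5)`; `GG_top`; `T5_comm`, `T5_pow`; `T5_le` : `T5` is generated by the `h5 i t`.
-/

set_option autoImplicit false

namespace Cfsg.Agent.H163.E65

open CoxeterSystem Cfsg.Lie Cfsg.Lie.ChevalleyDatum Cfsg.Agent.Nodes.RGDChev Cfsg.Agent.ChevalleyStructure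
  Cfsg.Agent.ChevalleyStructure.Elts Cfsg.Agent.ChevalleyStructure.MonomialNormal
  Cfsg.Agent.ChevalleyStructure.CoxeterGeomTypes Cfsg.Agent.Tits.Roots Cfsg.Agent.Tits.RootComb
  Cfsg.Agent.Nodes.BNOf Cfsg.Agent.Nodes.Bruhat Cfsg.Agent.Nodes.Reps Cfsg.Agent.ChevalleyStructure.CoxeterGeom

theorem lt_rank6 (i : Fin 6) : (i : ℕ) < chevE6.rank := lt_rank e6T i

theorem simple_lt6 (i : Fin 6) : chevE6.simple i < chevE6.nroots := Cfsg.Agent.ChevalleyStructure.NPerm.simple_lt e6T.inList (lt_rank6 i)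

theorem hG_mul6 (i : Fin 6) {s t : ZMod 5} (hs : s ≠ 0) (ht : t ≠ 0) :
    hG e6T.inList (chevE6.simple i) s * hG e6T.inList (chevE6.simple i) t = hG e6T.inList (chevE6.simple i) (s * t) := by
  apply Units.ext
  have hD := e6T.inList
  rw [Units.val_mul, coe_hG, coe_hG, coe_hG, Cfsg.Agent.S1033.result chevE6 hD i (lt_rank6 i) s hs,
    Cfsg.Agent.S1033.result chevE6 hD i (lt_rank6 i) t ht,
    Cfsg.Agent.S1033.result chevE6 hD i (lt_rank6 i) (s * t) (mul_ne_zero hs ht), Matrix.diagonal_mul_diagonal]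
  congr 1
  funext x
  rcases x with x | x
  · exact one_mul 1
  · exact (mul_zpow s t _).symm

theorem hG_one6 (i : Fin 6) : hG e6T.inList (chevE6.simple i) (1 : ZMod 5) = 1 := by
  have h1 := hG_mul6 i (one_ne_zero (α := ZMod 5)) one_ne_zero
  rw [mul_one] at h1
  exact mul_eq_left.1 h1

theorem h5_mul (i : Fin 6) {s t : ZMod 5} (hs : s ≠ 0) (ht : t ≠ 0) : h5 i s * h5 i t = h5 i (s * t) :=
  Subtype.ext (hG_mul6 i hs ht)

theorem h5_one (i : Fin 6) : h5 i 1 = 1 := Subtype.ext (hG_one6 i)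

theorem h5_mem (i : Fin 6) {t : ZMod 5} (ht : t ≠ 0) : h5 i t ∈ T5 := by
  rw [Subgroup.mem_subgroupOf]
  exact hG_mem_diagonal e6T.inList (simple_lt6 i) ht

theorem mem_X5_sr (i : Fin 6) (u : L5) :
    u ∈ X5 (sr i) ↔ ∃ t : ZMod 5, (⟨xG e6T.inList (chevE6.simple i) t, xG_mem_group _ _ _⟩ : L5) = u := by
  rw [Subgroup.mem_subgroupOf, XV_sr e6T, mem_rootSubgroup_iff e6T.inList]
  exact ⟨fun ⟨t, ht⟩ => ⟨t, Subtype.ext ht.symm⟩, fun ⟨t, ht⟩ => ⟨t, by rw [← ht]⟩⟩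

theorem mem_X5_neg (i : Fin 6) (u : L5) :
    u ∈ X5 (-sr i) ↔ ∃ t : ZMod 5, (⟨xG e6T.inList (chevE6.neg (chevE6.simple i)) t, xG_mem_group _ _ _⟩ : L5) = u := by
  rw [Subgroup.mem_subgroupOf, XV_neg_sr e6T, mem_rootSubgroup_iff e6T.inList]
  exact ⟨fun ⟨t, ht⟩ => ⟨t, Subtype.ext ht.symm⟩, fun ⟨t, ht⟩ => ⟨t, by rw [← ht]⟩⟩

theorem rel6 (i : Fin 6) (t : (ZMod 5)ˣ) :
    xG e6T.inList (chevE6.simple i) ((t⁻¹ : (ZMod 5)ˣ) : ZMod 5) * nG e6T.inList (chevE6.simple i) (1 : ZMod 5) =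
      xG e6T.inList (chevE6.neg (chevE6.simple i)) (t : ZMod 5) *
        xG e6T.inList (chevE6.simple i) (-((t⁻¹ : (ZMod 5)ˣ) : ZMod 5)) *
        (hG e6T.inList (chevE6.simple i) (((-t : (ZMod 5)ˣ)) : ZMod 5))⁻¹ := by
  have ht : (t : ZMod 5) ≠ 0 := t.ne_zero
  have h1 := xG_neg_eq' e6T (K := ZMod 5) (chevE6.simple i) (t : ZMod 5)
  rw [Units.val_inv_eq_inv_val, h1]
  have hx : xG e6T.inList (chevE6.simple i) (t : ZMod 5)⁻¹ * xG e6T.inList (chevE6.simple i) (-(t : ZMod 5)⁻¹) = 1 := by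
    rw [xG_add, add_neg_cancel, xG_zero]
  have h4 : nG e6T.inList (chevE6.simple i) (-(t : ZMod 5)⁻¹) =
      nG e6T.inList (chevE6.simple i) 1 * hG e6T.inList (chevE6.simple i) (-(t : ZMod 5)) := by
    have hn1 : (-1 : ZMod 5) ≠ 0 := neg_ne_zero.2 one_ne_zero
    have ha : hG e6T.inList (chevE6.simple i) (-1 : ZMod 5) =
        (nG e6T.inList (chevE6.simple i) (1 : ZMod 5))⁻¹ * (nG e6T.inList (chevE6.simple i) 1)⁻¹ := by
      rw [← nG_mul_inv, nG_neg_one]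
    have haa := hG_mul6 i hn1 hn1
    rw [neg_mul_neg, one_mul, hG_one6, ha] at haa
    have h5 : hG e6T.inList (chevE6.simple i) (t : ZMod 5)⁻¹ * hG e6T.inList (chevE6.simple i) (t : ZMod 5) = 1 := by
      rw [hG_mul6 i (inv_ne_zero ht) ht, inv_mul_cancel₀ ht, hG_one6]
    have h6 : hG e6T.inList (chevE6.simple i) (-1 : ZMod 5) * hG e6T.inList (chevE6.simple i) (-(t : ZMod 5)) =
        hG e6T.inList (chevE6.simple i) (t : ZMod 5) := by
      rw [hG_mul6 i hn1 (neg_ne_zero.2 ht), neg_mul_neg, one_mul]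
    have h7 : nG e6T.inList (chevE6.simple i) (t : ZMod 5)⁻¹ =
        hG e6T.inList (chevE6.simple i) (t : ZMod 5)⁻¹ * nG e6T.inList (chevE6.simple i) 1 := by
      rw [← nG_mul_inv, inv_mul_cancel_right]
    have h9 : nG e6T.inList (chevE6.simple i) (-(t : ZMod 5)⁻¹) = (nG e6T.inList (chevE6.simple i) (t : ZMod 5)⁻¹)⁻¹ :=
      (nG_inv _ _ _).symm
    rw [h9, h7]
    generalize nG e6T.inList (chevE6.simple i) (1 : ZMod 5) = N at *
    generalize hG e6T.inList (chevE6.simple i) (t : ZMod 5)⁻¹ = a at *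
    generalize hG e6T.inList (chevE6.simple i) (-(t : ZMod 5)) = b at *
    have h10 : a⁻¹ = hG e6T.inList (chevE6.simple i) (t : ZMod 5) := inv_eq_of_mul_eq_one_right h5
    rw [mul_inv_rev, h10, ← h6, ha]
    have h8 : N⁻¹ * N⁻¹ * N⁻¹ * N⁻¹ = 1 := by rw [← haa]; group
    have h11 : N⁻¹ * N⁻¹ * N⁻¹ = N := mul_inv_eq_one.1 h8
    calc N⁻¹ * (N⁻¹ * N⁻¹ * b) = N⁻¹ * N⁻¹ * N⁻¹ * b := by group
      _ = N * b := by rw [h11]
  rw [h4]
  have e : xG e6T.inList (chevE6.simple i) (t : ZMod 5)⁻¹ *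
      (nG e6T.inList (chevE6.simple i) 1 * hG e6T.inList (chevE6.simple i) (-(t : ZMod 5))) *
      xG e6T.inList (chevE6.simple i) (t : ZMod 5)⁻¹ * xG e6T.inList (chevE6.simple i) (-(t : ZMod 5)⁻¹) *
      (hG e6T.inList (chevE6.simple i) (-(t : ZMod 5)))⁻¹ =
      xG e6T.inList (chevE6.simple i) (t : ZMod 5)⁻¹ * nG e6T.inList (chevE6.simple i) 1 := by
    rw [mul_assoc _ (xG e6T.inList (chevE6.simple i) (t : ZMod 5)⁻¹) (xG e6T.inList (chevE6.simple i) (-(t : ZMod 5)⁻¹)), hx]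
    group
  rw [Units.val_neg]
  exact e.symm

/-- **the rank one data** -/
noncomputable def rk5 : RkOne T5 n5 X5 (ZMod 5) where
  x i t := ⟨xG e6T.inList (chevE6.simple i) t, xG_mem_group _ _ _⟩
  y i t := ⟨xG e6T.inList (chevE6.neg (chevE6.simple i)) t, xG_mem_group _ _ _⟩
  hh i :=
    { toFun := fun t => h5 i (t : ZMod 5)
      map_one' := by rw [Units.val_one, h5_one]
      map_mul' := fun s t => by rw [Units.val_mul, h5_mul i s.ne_zero t.ne_zero] }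
  x_mem := mem_X5_sr
  y_mem := mem_X5_neg
  x_add i s t := Subtype.ext (xG_add e6T.inList (chevE6.simple i) s t).symm
  y_add i s t := Subtype.ext (xG_add e6T.inList (chevE6.neg (chevE6.simple i)) s t).symm
  x_inj i s t e := xG_injective e6T.inList (simple_lt6 i) (congrArg Subtype.val e)
  h_mem i t := h5_mem i t.ne_zero
  rel i t := Subtype.ext (rel6 i t)

theorem GG_top {W : Type*} [Group W] (cs : CoxeterSystem CoxeterMatrix.E₆ W) : GG cs e6T.isCartan T5 X5 = ⊤ := by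
  rw [eq_top_iff, ← G1_eq_top e6T cs (K := ZMod 5)]
  exact le_sup_right

/-- `T5` is generated by the `h5 i t` -/
theorem T5_le {H : Subgroup L5} (hH : ∀ i (t : ZMod 5), t ≠ 0 → h5 i t ∈ H) : T5 ≤ H := by
  intro g hg
  rw [Subgroup.mem_subgroupOf] at hg
  obtain ⟨c, hc, e⟩ := Cfsg.Agent.S1034.result chevE6 e6T.inList (g : GL chevE6.Idx (ZMod 5)) hg
  have h1 : ∀ l : List ℕ, (∀ i ∈ l, i < 6) → ∃ g' ∈ H, ((g' : GL chevE6.Idx (ZMod 5)) : Matrix chevE6.Idx chevE6.Idx (ZMod 5)) =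
      chevE6.wordMat (ZMod 5) (l.flatMap fun i => chevE6.hWord (chevE6.simple i) (c i)) := by
    intro l
    induction l with
    | nil => intro _; exact ⟨1, one_mem _, rfl⟩
    | cons i l ih =>
      intro hl
      obtain ⟨g', hg', e'⟩ := ih fun j hj => hl j (List.mem_cons_of_mem _ hj)
      have hi : i < 6 := hl i List.mem_cons_self
      refine ⟨h5 ⟨i, hi⟩ (c i) * g', mul_mem (hH _ _ (hc i ?_)) hg', ?_⟩
      · rw [e6T.rank_eq]; exact hi
      · rw [List.flatMap_cons, wordMat_append, ← e']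
        show ((hG e6T.inList (chevE6.simple i) (c i) * g' : GL chevE6.Idx (ZMod 5)) :
          Matrix chevE6.Idx chevE6.Idx (ZMod 5)) = _
        rw [Units.val_mul, coe_hG]
        rfl
  obtain ⟨g', hg', e'⟩ := h1 (List.range chevE6.rank) (fun i hi => by
    rw [List.mem_range, e6T.rank_eq] at hi; exact hi)
  have h2 : g = g' := Subtype.ext (Units.ext (by rw [e, e']))
  rw [h2]
  exact hg'

end Cfsg.Agent.H163.E65
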