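import Cfsg.Agent.H163.E65.Defs

/-!
# S3650, characteristics 2 and 3: the Singer torus (helper163)
-/

set_option autoImplicit false

namespace Cfsg.Agent.H163.E65

universe u

/-- the properties of the Singer torus of `SL₃(125)` used -/
structure TI (H : Type u) [Group H] (T : Subgroup H) : Prop where
  comm : ∀ x ∈ T, ∀ y ∈ T, x * y = y * x
  card : Nat.card T = 15751
  cent : ∀ x ∈ T, x ≠ 1 → Subgroup.centralizer {x} = T
  norm : Nat.card (Subgroup.normalizer (T : Set H)) = 3 * 15751
  ord : Nat.card H = 125 ^ 3 * (125 ^ 2 - 1) * (125 ^ 3 - 1)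

end Cfsg.Agent.H163.E65
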