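import Cfsg.Agent.H163.E65.Curtis

/-!
# S3650, own characteristic: the highest weight function of a representation (helper163)

* `birk` : `Y = U⁻ N U`; `kap_cases`; `curtis`.
-/

set_option autoImplicit false
set_option linter.unusedSectionVars false

namespace Cfsg.Agent.H163.E65

open CoxeterSystem Cfsg.Agent.ChevalleyStructure.CoxeterGeom Cfsg.Agent.Tits.Roots Cfsg.Agent.Tits.Core
  Cfsg.Agent.Tits.RootComb Cfsg.Agent.Nodes.Comb Cfsg.Agent.Nodes.Reps Cfsg.Agent.Nodes.BNOf Cfsg.Agent.Nodes.Bruhat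
  Cfsg.Agent.Nodes.OppDec Cfsg.Agent.Tits.Exchange

variable {I W Y : Type*} [Fintype I] [DecidableEq I] [Group W] [Group Y] {M : CoxeterMatrix I}
  {cs : CoxeterSystem M W} {A : I → I → ℤ} {h : IsCartan M A} {p : ℕ} {T : Subgroup Y} {n : I → Y}
  {X : (I → ℤ) → Subgroup Y} {k : Type*} [Field k] {V : Type*} [AddCommGroup V] [Module k V]
  {ρ : Y →* Module.End k V}

variable (R : RGD cs h p T n X) (Q : RkOne T n X k)

theorem kap_cases [Fintype k] [DecidableEq k] {v : V} (hv : v ≠ 0) {χ : Y → k}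
    (hχ : ∀ t ∈ T, ρ t v = χ t • v) (i : I) :
    kap Q χ i = 0 ∨ (kap Q χ i = -1 ∧ ∀ t, χ ((Q.hh i t)⁻¹) = 1) := by
  classical
  have inj : ∀ a b : k, a • v = b • v → a = b := by
    intro a b hab
    rw [← sub_eq_zero, ← sub_smul, smul_eq_zero] at hab
    exact sub_eq_zero.1 (hab.resolve_right hv)
  let m : kˣ →* k :=
    { toFun := fun t => χ (Q.hh i t)
      map_one' := inj _ _ (by
        rw [← hχ _ (Q.h_mem i 1), map_one, map_one, Module.End.one_apply, one_smul])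
      map_mul' := fun s t => inj _ _ (by
        rw [← hχ _ (Q.h_mem i _), map_mul, mulv, hχ _ (Q.h_mem i t), map_smul, hχ _ (Q.h_mem i s), smul_smul,
          mul_comm]) }
  have hm : ∀ t, m t = χ (Q.hh i t) := fun _ => rfl
  have h1 : kap Q χ i = ∑ t : kˣ, m t := by
    unfold kap
    have e : ∀ t : kˣ, χ ((Q.hh i (-t))⁻¹) = m ((Equiv.neg kˣ).trans (Equiv.inv kˣ) t) := by
      intro t
      rw [hm, Equiv.trans_apply, Equiv.neg_apply, Equiv.inv_apply, map_inv]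
    rw [Finset.sum_congr rfl fun t _ => e t]
    exact Equiv.sum_comp ((Equiv.neg kˣ).trans (Equiv.inv kˣ)) (fun t => m t)
  rw [h1, sum_hom_units m]
  by_cases hm1 : m = 1
  · right
    rw [if_pos hm1]
    refine ⟨?_, fun t => ?_⟩
    · rw [Fintype.card_units, Nat.cast_sub Fintype.card_pos, Nat.cast_one, Nat.cast_card_eq_zero, zero_sub]
    · rw [← map_inv, ← hm, hm1, MonoidHom.one_apply]
  · left
    rw [if_neg hm1, Nat.cast_zero]

include R

theorem birk [Finite W] (hG : GG cs h T X = ⊤) (g : Y) : ∃ u ∈ UN cs h X, ∃ w c, Rp cs R.nsys w c ∧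
    ∃ b ∈ RGD.Sup X (RGD.Pos cs h), g = u * c * b := by
  obtain ⟨g₀, hg₀⟩ := exists_rp cs R.nsys (w0 cs)
  obtain ⟨w, b₁, hb₁, c, hc, b₂, hb₂, e⟩ := (mem_GG R (g := g₀ * g)).1 (by rw [hG]; exact Subgroup.mem_top _)
  obtain ⟨t₁, ht₁, u₁, hu₁, e₁⟩ := R.mem_B.1 (inv_mem hb₁)
  obtain ⟨t₂, ht₂, u₂, hu₂, e₂⟩ := R.mem_B.1 hb₂
  have e₁' : b₁ = u₁⁻¹ * t₁⁻¹ := by rw [← inv_inv b₁, e₁, mul_inv_rev]
  refine ⟨g₀⁻¹ * u₁⁻¹ * g₀, ?_, (w0 cs)⁻¹ * (1 * (w * 1)), g₀⁻¹ * (t₁⁻¹ * (c * t₂)),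
    hg₀.inv.mul ((rp_of_mem (inv_mem ht₁)).mul (hc.mul (rp_of_mem ht₂))), u₂, hu₂, ?_⟩
  · have h1 : g₀⁻¹ * u₁⁻¹ * g₀⁻¹⁻¹ ∈ cj g₀⁻¹ (RGD.Sup X (RGD.Pos cs h)) := conj_mem_cj.2 (inv_mem hu₁)
    have h2 : Rp cs R.nsys (w0 cs) g₀⁻¹ := by
      have := hg₀.inv
      rwa [w0_inv] at this
    rw [cj_U R h2, inv_inv] at h1
    exact h1
  · have e3 : g = g₀⁻¹ * (g₀ * g) := by group
    rw [e3, e, e₁', e₂]
    group

theorem isPGroup_UN [Finite W] : IsPGroup p ↥(UN cs h X) := by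
  obtain ⟨g₀, hg₀⟩ := exists_rp cs R.nsys (w0 cs)
  rw [← cj_U R hg₀]
  exact R.isPGroup_Upos.map _

include Q

/-- **Curtis' theorem**: a representation in characteristic `p` has a highest weight function. -/
theorem curtis [Finite W] [Finite Y] [Fintype k] [DecidableEq k] [Finite V] [Nontrivial V] [Fact p.Prime]
    [CharP k p] (hG : GG cs h T X = ⊤) (hTc : ∀ s ∈ T, ∀ t ∈ T, s * t = t * s)
    (hTp : ∀ t ∈ T, t ^ (Fintype.card k - 1) = 1) (ρ : Y →* Module.End k V) :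
    ∃ (v : V) (ξ : Module.Dual k V) (χ : Y → k) (J : Set I), v ≠ 0 ∧ HW cs h T n X (fun g => ξ (ρ g v)) χ J ∧
      Fx ρ (RGD.Sup X (RGD.Pos cs h)) v ∧ ∀ i ∈ J, ρ (n i) v = v := by
  obtain ⟨v, χ, c, hv, hU, hχ, hc⟩ := exists_weight R Q hTc hTp ρ
  -- the two kinds of nodes
  set J : Set I := {i | c i = 0 ∧ kap Q χ i = -1} with hJ
  have hX : ∀ i, ∀ u ∈ X (sr i), ρ u v = v := fun i u hu =>
    hU u (RGD.le_Sup (S := RGD.Pos cs h) ⟨isRoot_sr cs h i, sr_nonneg i⟩ hu)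
  have hnJ : ∀ i, i ∉ J → c i = kap Q χ i := by
    intro i hi
    rcases (hc i).2 with h0 | h0
    · rcases kap_cases Q hv hχ i with h1 | h1
      · rw [h0, h1]
      · exact absurd ⟨h0, h1.1⟩ hi
    · exact h0
  have hY : ∀ i ∈ J, ∀ u ∈ X (-sr i), ρ u v = v := by
    rintro i ⟨h0, h1⟩ u hu
    have h2 := ti_eq R Q hU hχ i
    have h3 : ∀ t, χ ((Q.hh i t)⁻¹) = 1 := by
      rcases kap_cases Q hv hχ i with h4 | h4
      · rw [h1] at h4
        exact absurd h4 (by simp)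
      · exact h4.2
    rw [(hc i).1, h0, zero_smul] at h2
    have h4 : ρ (n i) v + ∑ t : k, ρ (Q.y i t) v = v := by
      rw [sum_zero_units', x_zero_of_add (Q.y_add i), map_one, Module.End.one_apply]
      have h5 : ∑ t : kˣ, χ ((Q.hh i (-t))⁻¹) • ρ (Q.y i t) v = ∑ t : kˣ, ρ (Q.y i t) v :=
        Finset.sum_congr rfl fun t _ => by rw [h3, one_smul]
      rw [h5] at h2
      rw [add_left_comm, ← h2, add_zero]
    obtain ⟨s, rfl⟩ := (Q.y_mem i u).1 hu
    have h5 := congrArg (ρ (Q.y i s)) h4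
    rw [map_add, map_sum] at h5
    have h6 : ρ (Q.y i s) (ρ (n i) v) = ρ (n i) v := by
      rw [← mulv]
      have h7 : Q.y i s * n i = n i * ((n i)⁻¹ * Q.y i s * n i) := by group
      rw [h7, mulv, hX i _ (conj_neg' R Q i hu)]
    have h7 : ∑ t : k, ρ (Q.y i s) (ρ (Q.y i t) v) = ∑ t : k, ρ (Q.y i t) v := by
      have h8 : ∀ t, ρ (Q.y i s) (ρ (Q.y i t) v) = (fun t => ρ (Q.y i t) v) (Equiv.addLeft s t) := by
        intro t
        rw [← mulv, ← Q.y_add]; rfl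
      rw [Finset.sum_congr rfl fun t _ => h8 t]
      exact Equiv.sum_comp (Equiv.addLeft s) (fun t => ρ (Q.y i t) v)
    rw [h6, h7, h4] at h5
    exact h5.symm
  have hn : ∀ i ∈ J, ρ (n i) v = v := by
    intro i hi
    have h2 := ti_eq R Q hU hχ i
    have h3 := (kap_cases Q hv hχ i).resolve_left (by rw [hi.2]; simp)
    rw [(hc i).1, hi.1, zero_smul] at h2
    have h5 : ∑ t : kˣ, χ ((Q.hh i (-t))⁻¹) • ρ (Q.y i t) v = ∑ t : kˣ, χ ((Q.hh i (-t))⁻¹) • v :=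
      Finset.sum_congr rfl fun t _ => by rw [hY i hi _ ((Q.y_mem i _).2 ⟨_, rfl⟩)]
    have h6 : ∑ t : kˣ, χ ((Q.hh i (-t))⁻¹) • v = -v := by
      rw [← Finset.sum_smul]
      change kap Q χ i • v = -v
      rw [hi.2, neg_smul, one_smul]
    rw [h5, h6, ← sub_eq_add_neg] at h2
    exact (sub_eq_zero.1 h2.symm)
  -- the relation for the other nodes
  have hjmp : ∀ i, i ∉ J → ∃ c : Y →₀ k, (∀ u ∈ c.support, u ∈ X (-sr i)) ∧ (c.sum fun _ a => a) = 0 ∧
      ∀ ξ : Module.Dual k V, ∀ g, ξ (ρ (g * n i) v) = c.sum fun u a => a * ξ (ρ (g * u) v) := by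
    intro i hi
    set d : Y →₀ k := Finsupp.single 1 (c i) - ∑ t : kˣ, Finsupp.single (Q.y i t) (χ ((Q.hh i (-t))⁻¹)) with hd
    have hlin : ∀ F : Y → k, (d.sum fun u a => a * F u) = c i * F 1 - ∑ t : kˣ, χ ((Q.hh i (-t))⁻¹) * F (Q.y i t) := by
      intro F
      have h1 : (d.sum fun u a => a * F u) = Finsupp.linearCombination k F d := rfl
      rw [h1, hd, map_sub, map_sum, Finsupp.linearCombination_single, smul_eq_mul]
      congr 1
      refine Finset.sum_congr rfl fun t _ => ?_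
      rw [Finsupp.linearCombination_single, smul_eq_mul]
    refine ⟨d, ?_, ?_, ?_⟩
    · have h1 : d ∈ Finsupp.supported k k (X (-sr i) : Set Y) := by
        refine Submodule.sub_mem _ (Finsupp.single_mem_supported k _ (one_mem _)) (Submodule.sum_mem _ fun t _ => ?_)
        exact Finsupp.single_mem_supported k _ ((Q.y_mem i _).2 ⟨_, rfl⟩)
      exact fun u hu => (Finsupp.mem_supported k d).1 h1 hu
    · have h1 := hlin fun _ => 1
      simp only [mul_one] at h1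
      rw [h1, hnJ i hi]
      exact sub_self _
    · intro ξ g
      rw [hlin fun u => ξ (ρ (g * u) v)]
      have h2 := ti_eq R Q hU hχ i
      rw [(hc i).1] at h2
      have h3 : ρ (n i) v = c i • v - ∑ t : kˣ, χ ((Q.hh i (-t))⁻¹) • ρ (Q.y i t) v := by
        rw [h2, add_sub_cancel_right]
      rw [mulv, h3, map_sub, map_smul, map_sub, map_smul, map_sum, map_sum, mul_one, smul_eq_mul]
      congr 1
      refine Finset.sum_congr rfl fun t _ => ?_
      rw [map_smul, map_smul, smul_eq_mul, mulv]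
  -- the invariant functional
  let Φ : Module.Dual k V →ₗ[k] (Y → k) :=
    { toFun := fun ξ g => ξ (ρ g v)
      map_add' := fun ξ η => by funext g; rfl
      map_smul' := fun a ξ => by funext g; rfl }
  have hΦ : ∀ ξ g, Φ ξ g = ξ (ρ g v) := fun _ _ => rfl
  have hnt : Nontrivial ↥(LinearMap.range Φ) := by
    rw [Submodule.nontrivial_iff_ne_bot, Submodule.ne_bot_iff]
    have h1 : ¬ ∀ ξ : Module.Dual k V, ξ v = 0 := by
      rw [Module.forall_dual_apply_eq_zero_iff]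
      exact hv
    push Not at h1
    obtain ⟨ξ, hξ⟩ := h1
    refine ⟨Φ ξ, ⟨ξ, rfl⟩, ?_⟩
    intro h2
    apply hξ
    have h3 := congrFun h2 1
    rwa [hΦ, map_one, Module.End.one_apply] at h3
  have hfinP : Finite ↥(LinearMap.range Φ) := inferInstance
  have hstab : ∀ u : Y, ∀ φ ∈ LinearMap.range Φ, (fun g => φ (u⁻¹ * g)) ∈ LinearMap.range Φ := by
    rintro u _ ⟨ξ, rfl⟩
    refine ⟨ξ ∘ₗ ρ u⁻¹, ?_⟩
    funext g
    rw [hΦ, hΦ, mulv]; rfl
  obtain ⟨⟨φ, ξ, hξ⟩, hφ0, hφ⟩ := exists_fx (isPGroup_UN R) (P := ↥(LinearMap.range Φ))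
    (fun v => by rw [← Nat.cast_smul_eq_nsmul k, CharP.cast_eq_zero, zero_smul])
    (fun u φ => ⟨fun g => φ.1 ((u : Y)⁻¹ * g), hstab u φ.1 φ.2⟩)
    (fun φ => Subtype.ext (funext fun g => by simp))
    (fun a b φ => Subtype.ext (funext fun g => by simp [mul_assoc]))
    (fun a => Subtype.ext (funext fun g => by simp))
  have hleft : ∀ u ∈ UN cs h X, ∀ g, ξ (ρ (u * g) v) = ξ (ρ g v) := by
    intro u hu g
    have h1 := congrFun (congrArg Subtype.val (hφ ⟨u, hu⟩)) (u * g)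
    change φ (u⁻¹ * (u * g)) = φ (u * g) at h1
    rw [inv_mul_cancel_left, ← hξ, hΦ, hΦ] at h1
    exact h1.symm
  -- the shortest `w` on which it is not zero
  have hright : ∀ b ∈ RGD.Sup X (RGD.Pos cs h), ∀ g, ξ (ρ (g * b) v) = ξ (ρ g v) := by
    intro b hb g
    rw [mulv, hU b hb]
  let S : Set W := {w | ∃ g, Rp cs R.nsys w g ∧ ξ (ρ g v) ≠ 0}
  have hS : S.Nonempty := by
    by_contra hcon
    rw [Set.not_nonempty_iff_eq_empty, Set.eq_empty_iff_forall_notMem] at hcon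
    apply hφ0
    apply Subtype.ext
    show φ = 0
    funext g
    rw [← hξ, hΦ]
    obtain ⟨u, hu, w, c', hc', b, hb, rfl⟩ := birk R hG g
    rw [hright b hb, hleft u hu]
    by_contra h1
    exact hcon w ⟨c', hc', h1⟩
  obtain ⟨w, ⟨g, hg, hgne⟩, hmin⟩ := Set.exists_min_image S cs.length (Set.toFinite S) hS
  have hw1 : w = 1 := by
    by_contra hw
    obtain ⟨i, hi⟩ := cs.exists_rightDescent_of_ne_one hw
    have hi' : cs.length (w * cs.simple i) < cs.length w := hi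
    have hg' : Rp cs R.nsys (w * cs.simple i) (g * (n i)⁻¹) := by
      have := hg.mul (rp_simple cs R.nsys i).inv
      rwa [inv_simple] at this
    have h0 : ξ (ρ (g * (n i)⁻¹) v) = 0 := by
      by_contra h1
      have h2 := hmin _ ⟨_, hg', h1⟩
      omega
    apply hgne
    have e : g = g * (n i)⁻¹ * n i := by group
    by_cases hiJ : i ∈ J
    · rw [e, mulv, hn i hiJ, h0]
    · obtain ⟨d, hd1, -, hd3⟩ := hjmp i hiJ
      rw [e, hd3 ξ]
      refine Finset.sum_eq_zero fun u hu => ?_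
      have hpos : 0 ≤ rep cs h (w * cs.simple i) (sr i) := by
        refine nonneg_of_lt cs h _ i ?_
        rw [mul_assoc, simple_mul_simple_self, mul_one]
        exact hi'
      have h1 : g * (n i)⁻¹ * u * (g * (n i)⁻¹)⁻¹ ∈ UN cs h X := by
        have h2 := R.conj_mem hg' (isRoot_sr cs h i).neg (hd1 u hu)
        exact X_le_UN ((isRoot_sr cs h i).neg.act _) (by rw [map_neg]; exact neg_nonpos.2 hpos) h2
      have h2 : g * (n i)⁻¹ * u = g * (n i)⁻¹ * u * (g * (n i)⁻¹)⁻¹ * (g * (n i)⁻¹) := by group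
      show d u * ξ (ρ (g * (n i)⁻¹ * u) v) = 0
      rw [h2, hleft _ h1, h0, mul_zero]
  have hξv : ξ v ≠ 0 := by
    subst hw1
    intro h0
    apply hgne
    rw [hχ g hg.mem_of_one, map_smul, h0, smul_zero]
  refine ⟨v, (ξ v)⁻¹ • ξ, χ, J, hv, ⟨?_, ?_, ?_, ?_, ?_, ?_⟩, hU, hn⟩
  · rw [map_one, Module.End.one_apply, LinearMap.smul_apply, smul_eq_mul, inv_mul_cancel₀ hξv]
  · intro x hx h0 u hu g
    simp only [LinearMap.smul_apply, hleft u (X_le_UN hx h0 hu) g]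
  · intro x hx h0 u hu g
    simp only [LinearMap.smul_apply, hright u (RGD.le_Sup (S := RGD.Pos cs h) ⟨hx, h0⟩ hu) g]
  · intro t ht g
    simp only [LinearMap.smul_apply]
    rw [mulv, hχ t ht, map_smul, map_smul, smul_eq_mul, smul_eq_mul, smul_eq_mul]
    ring
  · intro i hi u hu g
    simp only [LinearMap.smul_apply]
    rw [mulv, hY i hi u hu]
  · intro i hi
    obtain ⟨d, hd1, hd2, hd3⟩ := hjmp i hi
    exact ⟨d, hd1, hd2, hd3 _⟩

end Cfsg.Agent.H163.E65
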